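/-
p-stability of sections when the Sylow 2-subgroups are abelian.
-/
import Cfsg.Agent.Dickson.PSolvable
import Cfsg.Agent.Core.Cores
import Cfsg.Agent.Core.HallHigman.PLengthBound
import Cfsg.Prelude.Def_LocalEven

set_option linter.unusedSectionVars false
set_option linter.style.haveILetI false

namespace Cfsg.Agent.PLocal

open Subgroup Cfsg

variable {G : Type*} [Group G] [Finite G] {r : ℕ} [Fact r.Prime]

theorem sylow_abelian_subgroup (h : ∀ T : Sylow r G, IsMulCommutative (T : Subgroup G)) (K : Subgroup G)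
    (U : Sylow r K) : IsMulCommutative (U : Subgroup K) := by
  obtain ⟨T, hT⟩ := (U.isPGroup'.map K.subtype).exists_le_sylow
  refine ⟨⟨fun a b => ?_⟩⟩
  have := congrArg Subtype.val ((h T).is_comm.comm ⟨_, hT ⟨a, a.2, rfl⟩⟩ ⟨_, hT ⟨b, b.2, rfl⟩⟩)
  exact Subtype.ext (Subtype.ext this)

theorem sylow_abelian_quotient_all (h : ∀ T : Sylow r G, IsMulCommutative (T : Subgroup G)) (N : Subgroup G)
    [N.Normal] (U : Sylow r (G ⧸ N)) : IsMulCommutative (U : Subgroup (G ⧸ N)) := by
  obtain ⟨T, hT⟩ := Sylow.mapSurjective_surjective (QuotientGroup.mk'_surjective N) r U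
  have hc := (h T).is_comm.comm
  subst hT
  refine ⟨⟨fun a b => ?_⟩⟩
  obtain ⟨x, hx, hxa⟩ := a.2
  obtain ⟨y, hy, hyb⟩ := b.2
  refine Subtype.ext ?_
  show (a : G ⧸ N) * b = b * a
  rw [← hxa, ← hyb, ← map_mul, ← map_mul, show x * y = y * x from congrArg Subtype.val (hc ⟨x, hx⟩ ⟨y, hy⟩)]

theorem isNormalizerPStable_of_abelian_sylow_two {p : ℕ} [Fact p.Prime] (hp : p ≠ 2)
    (h : ∀ T : Sylow 2 G, IsMulCommutative (T : Subgroup G)) : IsNormalizerPStable p G := by
  intro P hP g hg hq
  haveI := Fact.mk Nat.prime_two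
  set N := normalizer (P : Set G) with hN
  set P' := P.subgroupOf N with hP'
  haveI : P'.Normal := Subgroup.normal_subgroupOf_of_le_normalizer le_rfl
  have hP'p : IsPGroup p P' := hP.of_equiv (subgroupOfEquivOfLe Subgroup.le_normalizer).symm
  have hst := Dickson.isPStableOn_of_no_section hp
    (Dickson.no_section_of_abelian_sylow_two hp (sylow_abelian_subgroup h N)) P' hP'p ⟨g, hg⟩ (by
      refine (Subgroup.map_eq_bot_iff_of_injective _ N.subtype_injective).mp ?_
      rw [Subgroup.map_commutator, Subgroup.map_commutator, MonoidHom.map_zpowers, hP',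
        Subgroup.map_subgroupOf_eq_of_le Subgroup.le_normalizer]
      exact hq)
  have hC : centralizer (P' : Set N) = (centralizer (P : Set G)).subgroupOf N := by
    ext x
    simp only [mem_centralizer_iff, mem_subgroupOf]
    constructor
    · intro hx y hy
      exact congrArg Subtype.val (hx ⟨y, Subgroup.le_normalizer hy⟩ hy)
    · intro hx y hy
      exact Subtype.ext (hx y hy)
  have := Core.pCore_map_equiv (p := p) (QuotientGroup.quotientMulEquivOfEq hC)
  rw [← this]
  exact ⟨_, hst, rfl⟩

end Cfsg.Agent.PLocal
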