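/-
Control of fusion lifted from a normal subgroup.
-/
import Cfsg.Agent.Transfer.Fusion
import Cfsg.Agent.Transfer.Burnside
import Cfsg.Agent.Components.CoreDetection
import Cfsg.Agent.Core.Cores
import Cfsg.Agent.Core.Conj
import Cfsg.Agent.Coprime.Action
import Cfsg.Agent.Coprime.PxQ
import Cfsg.Agent.PLocal.ZJ

set_option linter.unusedSectionVars false
set_option linter.style.haveILetI false

namespace Cfsg.Agent.PLocal

open Subgroup Cfsg

variable {G : Type*} [Group G] [Finite G] {p : ℕ} [Fact p.Prime]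

/-- If the normalizers of all members of a finite family control fusion, so does their intersection. -/
theorem control_family (N S : Subgroup G) (f : G → Subgroup G) (t : Set G)
    (hfS : ∀ x ∈ t, f x ≤ S) (hfn : ∀ x ∈ t, ∀ s ∈ S, s ∈ normalizer (f x : Set G))
    (hctrl : ∀ x ∈ t, ∀ A : Subgroup G, A ≤ S → ∀ n ∈ N, (∀ a ∈ A, n * a * n⁻¹ ∈ S) →
      ∃ h ∈ N ⊓ normalizer (f x : Set G), ∃ c ∈ N ⊓ centralizer (A : Set G), n = h * c)
    (A : Subgroup G) (hA : A ≤ S) (n : G) (hn : n ∈ N) (hAn : ∀ a ∈ A, n * a * n⁻¹ ∈ S) :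
    ∃ h ∈ N, (∀ x ∈ t, h ∈ normalizer (f x : Set G)) ∧ ∃ c ∈ N ⊓ centralizer (A : Set G), n = h * c := by
  induction t, Set.toFinite t using Set.Finite.induction_on generalizing A n with
  | empty => exact ⟨n, hn, by simp, 1, one_mem _, by simp⟩
  | @insert x u hxu hu ih =>
    obtain ⟨h1, hh1, hh1u, c1, hc1, rfl⟩ := ih (fun y hy => hfS y (Set.mem_insert_of_mem _ hy))
      (fun y hy => hfn y (Set.mem_insert_of_mem _ hy)) (fun y hy => hctrl y (Set.mem_insert_of_mem _ hy))
      A hA n hn hAn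
    set A' := A ⊔ ⨆ y : u, f y with hA'
    have hA'S : A' ≤ S := sup_le hA (iSup_le fun y => hfS y (Set.mem_insert_of_mem _ y.2))
    have hA'n : A' ≤ S.comap (MulAut.conj h1).toMonoidHom := by
      refine sup_le (fun a ha => ?_) (iSup_le fun y z hz => ?_)
      · have h2 := hAn a ha
        have he : (h1 * c1) * a * (h1 * c1)⁻¹ = h1 * a * h1⁻¹ := by
          calc (h1 * c1) * a * (h1 * c1)⁻¹ = h1 * (c1 * a) * c1⁻¹ * h1⁻¹ := by group
            _ = _ := by rw [← mem_centralizer_iff.mp hc1.2 a ha]; group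
        rw [he] at h2
        exact h2
      · exact hfS y (Set.mem_insert_of_mem _ y.2) ((mem_normalizer_iff.mp (hh1u y y.2) z).mp hz)
    obtain ⟨h2, hh2, c2, hc2, rfl⟩ := hctrl x (Set.mem_insert _ _) A' hA'S h1 hh1 fun a ha => hA'n ha
    refine ⟨h2, hh2.1, ?_, c2 * c1, ⟨mul_mem hc2.1 hc1.1, mul_mem ?_ hc1.2⟩, by group⟩
    · rintro y (rfl | hy)
      · exact hh2.2
      · have hc : c2 ∈ normalizer (f y : Set G) := Coprime.mem_normalizer_of_conj_mem fun z hz => by
          rw [← mem_centralizer_iff.mp hc2.2 z (le_sup_of_le_right (le_iSup (fun y : u => f y) ⟨y, hy⟩) hz),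
            mul_inv_cancel_right]
          exact hz
        have := mul_mem (hh1u y hy) (inv_mem hc)
        rwa [mul_inv_cancel_right] at this
    · exact centralizer_le (fun a ha => mem_sup_left ha) hc2.2

/-- In a group where a Sylow `p`-subgroup is central, every element splits as `z * k`. -/
theorem exists_mul_of_central_sylow (U : Sylow p G) (hU : (U : Subgroup G) ≤ center G) (g : G) :
    ∃ z ∈ (U : Subgroup G), ∃ k ∈ pPrimeCore p G, g = z * k := by
  have hnc := Transfer.hasNormalPComplement_of_normalizer_le_centralizer U (fun x _ =>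
    mem_centralizer_iff.mpr fun y hy => (mem_center_iff.mp (hU hy) x).symm)
  obtain ⟨M, hM, hMp, k, hk⟩ := Transfer.hasNormalPComplement_iff_exists.mp hnc
  have hMK : M ≤ pPrimeCore p G := Core.le_pPrimeCore hM hMp
  have htop : (U : Subgroup G) ⊔ pPrimeCore p G = ⊤ := by
    rw [← index_eq_one]
    have h1 : ((U : Subgroup G) ⊔ pPrimeCore p G).index ∣ p ^ k :=
      hk ▸ index_dvd_of_le (hMK.trans le_sup_right)
    obtain ⟨j, -, hj⟩ := (Nat.dvd_prime_pow (Fact.out : p.Prime)).mp h1
    rcases Nat.eq_zero_or_pos j with hj0 | hj0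
    · rw [hj, hj0, pow_zero]
    · exact absurd ((dvd_pow_self p hj0.ne').trans (hj ▸ index_dvd_of_le le_sup_left)) U.not_dvd_index
  obtain ⟨z, hz, y, hy, hzy⟩ := mem_sup_of_normal_right.mp (htop ▸ mem_top g)
  exact ⟨z, hz, y, hy, hzy.symm⟩

/-- If `X ≥ N_G(P ⊓ N)` controls strong fusion in `P ⊓ N` relative to the normal subgroup `N`, then it
controls strong fusion in `P` relative to `G`. -/
theorem control_lift (N : Subgroup G) [N.Normal] (P : Sylow p G) (X : Subgroup G)
    (hX : normalizer (((P : Subgroup G) ⊓ N : Subgroup G) : Set G) ≤ X)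
    (hctrl : ∀ A : Subgroup G, A ≤ (P : Subgroup G) ⊓ N → ∀ n ∈ N, (∀ a ∈ A, n * a * n⁻¹ ∈ (P : Subgroup G) ⊓ N) →
      ∃ h ∈ X, ∃ c ∈ N ⊓ centralizer (A : Set G), n = h * c)
    (A : Subgroup G) (hA : A ≤ (P : Subgroup G)) (g : G) (hAg : A.map (MulAut.conj g).toMonoidHom ≤ (P : Subgroup G)) :
    ∃ h ∈ X, ∃ c ∈ centralizer (A : Set G), g = h * c := by
  induction hd : Nat.card (P : Subgroup G) - Nat.card A using Nat.strong_induction_on
    generalizing A g with
  | h d ih =>
    subst hd
    set S := (P : Subgroup G) ⊓ N with hSdef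
    have hPX : (P : Subgroup G) ≤ X := fun a ha => hX (Coprime.mem_normalizer_of_conj_mem fun b hb =>
      ⟨(P : Subgroup G).mul_mem ((P : Subgroup G).mul_mem ha hb.1) ((P : Subgroup G).inv_mem ha),
        (inferInstance : N.Normal).conj_mem b hb.2 a⟩)
    let R : Subgroup G → G → Prop := fun B k =>
      Nat.card A ≤ Nat.card B → ∃ h ∈ X, ∃ c ∈ centralizer (B : Set G), k = h * c
    have hcard : ∀ (B : Subgroup G) (k : G), Nat.card (B.map (MulAut.conj k).toMonoidHom) = Nat.card B :=
      fun B k => Subgroup.card_map_of_injective (MulAut.conj k).injective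
    refine Transfer.alperin_induction P R ?_ ?_ ?_ ?_ hA hAg le_rfl
    · intro B C k hBC hC hle
      obtain ⟨h, hh, c, hc, e⟩ := hC (hle.trans (Subgroup.card_le_of_le hBC))
      exact ⟨h, hh, c, centralizer_le hBC hc, e⟩
    · intro B k l hk hl hle
      obtain ⟨h, hh, c, hc, rfl⟩ := hk hle
      obtain ⟨h', hh', c', hc', rfl⟩ := hl (by rwa [hcard])
      refine ⟨h' * h, mul_mem hh' hh, h⁻¹ * c' * h * c, mul_mem ?_ hc, by group⟩
      rw [mem_centralizer_iff]
      intro b hb
      have h1 := mem_centralizer_iff.mp hc' (h * b * h⁻¹) ⟨b, hb, by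
        show (h * c) * b * (h * c)⁻¹ = h * b * h⁻¹
        calc (h * c) * b * (h * c)⁻¹ = h * (c * b) * c⁻¹ * h⁻¹ := by group
          _ = _ := by rw [← mem_centralizer_iff.mp hc b hb]; group⟩
      calc b * (h⁻¹ * c' * h) = h⁻¹ * (h * b * h⁻¹ * c') * h := by group
        _ = h⁻¹ * c' * h * b := by rw [h1]; group
    · intro B k hk hle
      rw [hcard] at hle
      obtain ⟨h, hh, c, hc, rfl⟩ := hk hle
      refine ⟨h⁻¹, inv_mem hh, h * c⁻¹ * h⁻¹, ?_, by group⟩
      rw [mem_centralizer_iff]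
      rintro _ ⟨b, hb, rfl⟩
      show (h * c) * b * (h * c)⁻¹ * (h * c⁻¹ * h⁻¹) = h * c⁻¹ * h⁻¹ * ((h * c) * b * (h * c)⁻¹)
      have hcb := mem_centralizer_iff.mp (inv_mem hc) b hb
      calc (h * c) * b * (h * c)⁻¹ * (h * c⁻¹ * h⁻¹) = h * c * (b * c⁻¹) * c⁻¹ * h⁻¹ := by group
        _ = _ := by rw [hcb]; group
    intro B hB m hm hle
    obtain ⟨hBP, hsyl⟩ := Transfer.FullyNormalizedIn.of_tame hB
    set H := normalizer (B : Set G) with hHdef
    set R₀ := B ⊓ N with hR₀
    set E := N ⊓ centralizer (R₀ : Set G) ⊓ H with hEdef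
    have hR₀S : R₀ ≤ S := le_inf (inf_le_left.trans hBP) inf_le_right
    have hHR : ∀ y ∈ H, y ∈ normalizer (R₀ : Set G) := fun y hy =>
      Coprime.mem_normalizer_of_conj_mem fun b hb =>
        ⟨(mem_normalizer_iff.mp hy b).mp hb.1, (inferInstance : N.Normal).conj_mem b hb.2 y⟩
    have hEconj : ∀ y ∈ H, ∀ e ∈ E, y * e * y⁻¹ ∈ E := fun y hy e he => by
      refine mem_inf.mpr ⟨mem_inf.mpr ⟨(inferInstance : N.Normal).conj_mem e he.1.1 y,
        mem_centralizer_iff.mpr ?_⟩, mul_mem (mul_mem hy he.2) (inv_mem hy)⟩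
      intro r hr
      have h1 : y⁻¹ * r * y ∈ R₀ := by
        have := (mem_normalizer_iff.mp (inv_mem (hHR y hy)) r).mp hr
        rwa [inv_inv] at this
      calc r * (y * e * y⁻¹) = y * ((y⁻¹ * r * y) * e) * y⁻¹ := by group
        _ = _ := by rw [mem_centralizer_iff.mp he.1.2 _ h1]; group
    let PH : Sylow p H := IsPGroup.toSylow (P := ((P : Subgroup G) ⊓ H).subgroupOf H)
      P.2.to_inf_left.comap_subtype hsyl
    have hPH : ∀ y : H, y ∈ (PH : Subgroup H) ↔ (y : G) ∈ (P : Subgroup G) := fun y =>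
      ⟨fun h => (mem_subgroupOf.mp h).1, fun h => mem_subgroupOf.mpr ⟨h, y.2⟩⟩
    haveI hEn : (E.subgroupOf H).Normal := ⟨fun e he y => hEconj y y.2 e he⟩
    obtain ⟨T, hT⟩ := exists_sylow_inf PH (E.subgroupOf H)
    set T₁ := (PH : Subgroup H) ⊓ E.subgroupOf H with hT₁
    have hF : normalizer (T₁ : Set H) ⊔ E.subgroupOf H = ⊤ := by
      rw [← hT]; exact Sylow.normalizer_sup_eq_top T
    -- elements of `E` act on `B` through a `p`-group
    have hEp : ∀ e ∈ E, e ^ Nat.card R₀ ∈ centralizer (B : Set G) := by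
      intro e he
      rw [mem_centralizer_iff]
      intro b hb
      set r := e * b * e⁻¹ * b⁻¹ with hr
      have hr0 : r ∈ R₀ := by
        refine mem_inf.mpr ⟨B.mul_mem ((mem_normalizer_iff.mp he.2 b).mp hb) (B.inv_mem hb), ?_⟩
        rw [show r = e * (b * e⁻¹ * b⁻¹) by rw [hr]; group]
        exact mul_mem he.1.1 ((inferInstance : N.Normal).conj_mem _ (inv_mem he.1.1) b)
      have her : Commute e r := (mem_centralizer_iff.mp he.1.2 r hr0).symm
      have hstep : ∀ j : ℕ, e ^ j * b * (e ^ j)⁻¹ = r ^ j * b := by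
        intro j
        induction j with
        | zero => simp
        | succ j hj =>
          calc e ^ (j + 1) * b * (e ^ (j + 1))⁻¹ = e * (e ^ j * b * (e ^ j)⁻¹) * e⁻¹ := by rw [pow_succ']; group
            _ = (e * r ^ j * e⁻¹) * (e * b * e⁻¹) := by rw [hj]; group
            _ = r ^ j * (r * b) := by
                rw [(her.pow_right j).eq, mul_inv_cancel_right, hr]; group
            _ = r ^ (j + 1) * b := by rw [pow_succ]; exact (mul_assoc _ _ _).symm
      have h1 := hstep (Nat.card R₀)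
      have h2 : r ^ Nat.card R₀ = 1 := congrArg Subtype.val (pow_card_eq_one' (x := (⟨r, hr0⟩ : R₀)))
      rw [h2, one_mul] at h1
      exact (mul_inv_eq_iff_eq_mul.mp h1).symm
    by_cases hcase : ∀ y ∈ T₁, (y : G) ∈ R₀
    · -- `N ⊓ C(R₀)` has a central Sylow subgroup
      set D := N ⊓ centralizer (R₀ : Set G) with hDdef
      have hBD : B ≤ normalizer (D : Set G) := fun b hb => Coprime.mem_normalizer_of_conj_mem fun d hd => by
        refine mem_inf.mpr ⟨(inferInstance : N.Normal).conj_mem d hd.1 b, mem_centralizer_iff.mpr ?_⟩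
        intro r hr
        have hbR := hHR b (Subgroup.le_normalizer hb)
        have h1 : b⁻¹ * r * b ∈ R₀ := by
          have := (mem_normalizer_iff.mp (inv_mem hbR) r).mp hr
          rwa [inv_inv] at this
        calc r * (b * d * b⁻¹) = b * ((b⁻¹ * r * b) * d) * b⁻¹ := by group
          _ = _ := by rw [mem_centralizer_iff.mp hd.2 _ h1]; group
      set L := B ⊔ D with hLdef
      haveI hDn : (D.subgroupOf L).Normal :=
        normal_subgroupOf_of_le_normalizer (sup_le hBD Subgroup.le_normalizer)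
      have hBp : IsPGroup p B := P.2.to_le hBP
      obtain ⟨U, hU⟩ := (hBp.comap_subtype (K := L)).exists_le_sylow
      obtain ⟨TD, hTD⟩ := exists_sylow_inf U (D.subgroupOf L)
      set U' := (U : Subgroup L).map L.subtype with hU'
      have hBU : B ≤ U' := fun b hb => ⟨⟨b, mem_sup_left hb⟩, hU (mem_subgroupOf.mpr hb), rfl⟩
      have hTR : ∀ d ∈ U' ⊓ D, d ∈ R₀ := by
        by_contra hne
        push Not at hne
        obtain ⟨d, hd, hdR⟩ := hne
        set U₂ := U' ⊓ (B ⊔ U' ⊓ D) with hU₂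
        have hU'p : IsPGroup p U' := U.2.map _
        have hdB : d ∉ B := fun h => hdR ⟨h, hd.2.1⟩
        have hlt : B < B ⊔ U' ⊓ D := lt_of_le_of_ne le_sup_left fun h => hdB (h ▸ mem_sup_right hd)
        have hle' : B ⊔ U' ⊓ D ≤ U' := sup_le hBU inf_le_left
        obtain ⟨y, hy, hyB⟩ := SetLike.exists_of_lt (Transfer.lt_inf_normalizer (hU'p.to_le hle') hlt)
        have hnUD : B ≤ normalizer ((U' ⊓ D : Subgroup G) : Set G) :=
          (le_inf (hBU.trans Subgroup.le_normalizer) hBD).trans inf_normalizer_le_normalizer_inf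
        obtain ⟨t, ht, b, hb, rfl⟩ := Coprime.exists_mul_of_mem_sup hnUD (sup_comm B (U' ⊓ D) ▸ hy.1)
        have htH : t ∈ H := by
          have := H.mul_mem hy.2 (H.inv_mem (show b ∈ H from Subgroup.le_normalizer hb))
          rwa [mul_inv_cancel_right] at this
        have htE : t ∈ E := ⟨ht.2, htH⟩
        haveI hTn : (T : Subgroup (E.subgroupOf H)).Normal := ⟨fun a ha e => by
          have ha' : ((a : H) : G) ∈ R₀ := hcase a (by rw [← hT]; exact ⟨a, ha, rfl⟩)
          have he : ((e : H) : G) ∈ E := e.2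
          have : e * a * e⁻¹ = a := by
            apply Subtype.ext; apply Subtype.ext
            show ((e : H) : G) * ((a : H) : G) * ((e : H) : G)⁻¹ = ((a : H) : G)
            rw [← mem_centralizer_iff.mp he.1.2 _ ha', mul_inv_cancel_right]
          rwa [this]⟩
        set t' : E.subgroupOf H := ⟨⟨t, htH⟩, htE⟩ with ht'
        have htp : IsPGroup p (zpowers t') := by
          intro z
          obtain ⟨k, hk⟩ := hU'p ⟨t, ht.1⟩
          have hk' : t' ^ p ^ k = 1 := Subtype.ext (Subtype.ext (by simpa [ht'] using congrArg Subtype.val hk))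
          refine ⟨k, ?_⟩
          obtain ⟨j, hj⟩ := mem_zpowers_iff.mp z.2
          apply Subtype.ext
          rw [SubmonoidClass.coe_pow, ← hj, ← zpow_natCast, ← zpow_mul, mul_comm, zpow_mul, zpow_natCast, hk',
            one_zpow]
          rfl
        obtain ⟨T', hT'⟩ := htp.exists_le_sylow
        haveI := Sylow.unique_of_normal T hTn
        have : T' = T := Subsingleton.elim _ _
        have htT : (⟨t, htH⟩ : H) ∈ T₁ := by
          rw [← hT]; exact ⟨t', this ▸ hT' (mem_zpowers t'), rfl⟩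
        exact hyB (mul_mem ((hcase _ htT).1) hb)
      have hDp : ∀ c ∈ D, ∃ z ∈ R₀, ∃ k ∈ (pPrimeCore p D).map D.subtype, c = z * k := by
        intro c hc
        set e := (subgroupOfEquivOfLe (le_sup_right : D ≤ L))
        set TD' : Sylow p D := TD.mapSurjective (f := e.toMonoidHom) e.surjective with hTD'
        have hmem : ∀ z ∈ (TD' : Subgroup D), (z : G) ∈ R₀ := by
          intro z hz
          rw [hTD'] at hz
          obtain ⟨w, hw, rfl⟩ := Subgroup.mem_map.mp hz
          have hw' : (w : L) ∈ (U : Subgroup L) ⊓ D.subgroupOf L := by rw [← hTD]; exact ⟨w, hw, rfl⟩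
          exact hTR _ ⟨⟨w, hw'.1, rfl⟩, w.2⟩
        have hcen : (TD' : Subgroup D) ≤ center D := fun z hz => mem_center_iff.mpr fun d =>
          Subtype.ext (mem_centralizer_iff.mp d.2.2 (z : G) (hmem z hz)).symm
        obtain ⟨z, hz, k, hk, he⟩ := exists_mul_of_central_sylow TD' hcen ⟨c, hc⟩
        exact ⟨z, hmem z hz, k, ⟨k, hk, rfl⟩, congrArg Subtype.val he⟩
      set K := (pPrimeCore p D).map D.subtype with hKdef
      have hBK : B ≤ normalizer (K : Set G) := fun b hb => by
        exact Components.normalizer_le_normalizer_map_char (pPrimeCore p D) (hBD hb)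
      have hG : normalizer (S : Set G) ⊔ N = ⊤ := by
        obtain ⟨TN, hTN⟩ := exists_sylow_inf P N
        rw [hSdef, ← hTN]; exact Sylow.normalizer_sup_eq_top TN
      obtain ⟨x, hx, n, hn, rfl⟩ := mem_sup_of_normal_right.mp (hG ▸ mem_top m)
      obtain ⟨h, hh, c, hc, rfl⟩ := hctrl R₀ hR₀S n hn fun r hr => by
        have h1 := (mem_normalizer_iff.mp (hHR _ hm) r).mp hr
        have h2 : n * r * n⁻¹ = x⁻¹ * ((x * n) * r * (x * n)⁻¹) * x := by group
        rw [h2]
        have h3 := (mem_normalizer_iff.mp (inv_mem hx) _).mp (hR₀S h1)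
        rwa [inv_inv] at h3
      obtain ⟨z, hz, k, hk, rfl⟩ := hDp c ⟨hc.1, hc.2⟩
      have hzX : z ∈ X := hPX (hBP hz.1)
      have hcop : (Nat.card B).Coprime (Nat.card K) := by
        obtain ⟨j, hj⟩ := IsPGroup.iff_card.mp hBp
        rw [hj, hKdef, Core.card_map_subtype]
        exact ((Core.card_pPrimeCore_coprime p D).symm).pow_left j
      haveI : Group.IsSolvable B := Coprime.isSolvable_of_isPGroup hBp
      have hxhz : x * h * z ∈ X := mul_mem (mul_mem (hX hx) hh) hzX
      obtain ⟨s, hs, c', hc', rfl⟩ := Coprime.exists_mem_centralizer_of_conj_le (S := X) hBK hcop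
        (hBP.trans hPX) hk (fun b hb => by
          have h1 := hPX (hBP ((mem_normalizer_iff.mp hm b).mp hb))
          have h2 : k * b * k⁻¹ = (x * h * z)⁻¹ *
              ((x * (h * (z * k))) * b * (x * (h * (z * k)))⁻¹) * (x * h * z) := by group
          rw [h2]
          exact mul_mem (mul_mem (inv_mem hxhz) h1) hxhz)
      exact ⟨x * h * z * s, mul_mem hxhz hs.2, c', hc'.2, by group⟩
    · push Not at hcase
      obtain ⟨y, hy, hyR⟩ := hcase
      set T₁' := T₁.map H.subtype with hT₁'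
      have hT₁P : T₁' ≤ (P : Subgroup G) ⊓ E := by
        rintro _ ⟨z, hz, rfl⟩
        exact ⟨(hPH z).mp hz.1, hz.2⟩
      have hyB : (y : G) ∉ B := fun h => hyR ⟨h, (hT₁P ⟨y, hy, rfl⟩).2.1.1⟩
      have hlt : Nat.card B < Nat.card (B ⊔ T₁' : Subgroup G) := by
        refine lt_of_not_ge fun hge => hyB ?_
        rw [Subgroup.eq_of_le_of_card_ge le_sup_left hge]
        exact mem_sup_right ⟨y, hy, rfl⟩
      obtain ⟨n', hn', e, he, hne⟩ := mem_sup_of_normal_right.mp (hF ▸ mem_top (⟨m, hm⟩ : H))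
      have hbig : ((B ⊔ T₁').map (MulAut.conj (n' : G)).toMonoidHom) ≤ (P : Subgroup G) := by
        rw [Subgroup.map_sup]
        refine sup_le ?_ ?_
        · rintro _ ⟨b, hb, rfl⟩
          exact hBP ((mem_normalizer_iff.mp n'.2 b).mp hb)
        · rintro _ ⟨_, ⟨z, hz, rfl⟩, rfl⟩
          exact (hPH _).mp ((mem_normalizer_iff.mp hn' z).mp hz).1
      have hBT : B ⊔ T₁' ≤ (P : Subgroup G) := sup_le hBP (hT₁P.trans inf_le_left)
      obtain ⟨h, hh, c, hc, hnc⟩ := ih (Nat.card (P : Subgroup G) - Nat.card (B ⊔ T₁' : Subgroup G))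
        (by have := Subgroup.card_le_of_le hBT; omega) _ hBT (n' : G) hbig rfl
      have hcB : c ∈ centralizer (B : Set G) := centralizer_le (fun a ha => mem_sup_left ha) hc
      set C := (centralizer (B : Set G)).subgroupOf H
      haveI hCn : (C.subgroupOf (E.subgroupOf H)).Normal := ⟨fun a ha b => by
        have ha' : ((a : H) : G) ∈ centralizer (B : Set G) := ha
        show ((b : H) : G) * ((a : H) : G) * ((b : H) : G)⁻¹ ∈ centralizer (B : Set G)
        rw [mem_centralizer_iff]
        intro z hz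
        have h1 : ((b : H) : G)⁻¹ * z * ((b : H) : G) ∈ B := by
          have := (mem_normalizer_iff.mp (inv_mem (b : H).2) z).mp hz
          rwa [inv_inv] at this
        calc z * (((b : H) : G) * ((a : H) : G) * ((b : H) : G)⁻¹)
            = ((b : H) : G) * ((((b : H) : G)⁻¹ * z * ((b : H) : G)) * ((a : H) : G)) * ((b : H) : G)⁻¹ := by group
          _ = _ := by rw [mem_centralizer_iff.mp ha' _ h1]; group⟩
      have hquot : IsPGroup p (↥(E.subgroupOf H) ⧸ C.subgroupOf (E.subgroupOf H)) := by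
        intro q
        obtain ⟨a, rfl⟩ := QuotientGroup.mk'_surjective _ q
        obtain ⟨j, hj⟩ := IsPGroup.iff_card.mp ((P.2.to_le hBP).to_le (inf_le_left : R₀ ≤ B))
        refine ⟨j, ?_⟩
        rw [← map_pow, QuotientGroup.mk'_apply, QuotientGroup.eq_one_iff]
        show ((a : H) : G) ^ p ^ j ∈ centralizer (B : Set G)
        rw [← hj]
        exact hEp _ a.2
      set C' := C.subgroupOf (E.subgroupOf H) with hC'
      set T' : Subgroup (E.subgroupOf H) := (T : Subgroup (E.subgroupOf H)) with hT'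
      obtain ⟨k, hk⟩ : ∃ k, C'.index = p ^ k := by
        obtain ⟨k, hk⟩ := IsPGroup.iff_card.mp hquot
        exact ⟨k, (Subgroup.index_eq_card C').trans hk⟩
      have htop : T' ⊔ C' = ⊤ := by
        rw [← index_eq_one]
        have h1 : (T' ⊔ C').index ∣ p ^ k := by
          rw [← hk]; exact index_dvd_of_le le_sup_right
        obtain ⟨j, -, hj⟩ := (Nat.dvd_prime_pow (Fact.out : p.Prime)).mp h1
        rcases Nat.eq_zero_or_pos j with hj0 | hj0
        · rw [hj, hj0, pow_zero]
        · have h2 : (T' ⊔ C').index ∣ T'.index := index_dvd_of_le le_sup_left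
          rw [hj] at h2
          exact absurd ((dvd_pow_self p hj0.ne').trans h2) T.not_dvd_index
      have hmemtop : (⟨e, he⟩ : E.subgroupOf H) ∈ T' ⊔ C' := by rw [htop]; exact mem_top _
      obtain ⟨t, ht, c₀, hc₀, htc⟩ := mem_sup_of_normal_right.mp hmemtop
      have htP : ((t : H) : G) ∈ (P : Subgroup G) := by
        have : (t : H) ∈ T₁ := by rw [← hT]; exact ⟨t, ht, rfl⟩
        exact (hPH _).mp this.1
      have hm' : m = h * c * (((t : H) : G) * ((c₀ : H) : G)) := by
        have h1 := congrArg (fun u : E.subgroupOf H => ((u : H) : G)) htc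
        have h2 := congrArg (fun u : H => (u : G)) hne
        simp only [Subgroup.coe_mul] at h1 h2
        rw [← hnc, h1, h2]
      refine ⟨h * ((t : H) : G), mul_mem hh (hPX htP),
        ((t : H) : G)⁻¹ * c * ((t : H) : G) * ((c₀ : H) : G), mul_mem ?_ hc₀, by rw [hm']; group⟩
      rw [mem_centralizer_iff]
      intro b hb
      have h1 : ((t : H) : G) * b * ((t : H) : G)⁻¹ ∈ B := (mem_normalizer_iff.mp (t : H).2 b).mp hb
      calc b * (((t : H) : G)⁻¹ * c * ((t : H) : G))
          = ((t : H) : G)⁻¹ * (((t : H) : G) * b * ((t : H) : G)⁻¹ * c) * ((t : H) : G) := by group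
        _ = _ := by rw [mem_centralizer_iff.mp hcB _ h1]; group

end Cfsg.Agent.PLocal
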