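import Cfsg.Agent.Forms.SpPrimeGraph
import Cfsg.Agent.Forms.PrimeGraphBC
import Cfsg.Agent.Forms.SympSpectrum
import Cfsg.Agent.S0245
import Cfsg.Agent.S0246

/-!
The prime graph of `PSp(6,3)`: the vertices are `2, 3, 5, 7, 13`, the edges `2-3`, `2-5`, `2-7`,
`3-5`.
-/

set_option autoImplicit false
set_option linter.unusedSectionVars false

namespace Cfsg.Agent.PLocal.PSpSixThree

open Module Polynomial Cfsg.Agent.Forms
open LinearMap (BilinForm)

variable {F : Type*} [Field F] [Fintype F]

theorem no_square_neg_one (hF : Fintype.card F = 3) (d : F) : d * d ≠ -1 := fun h =>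
  (FiniteField.isSquare_neg_one_iff.1 ⟨d, h.symm⟩) (by rw [hF])

theorem charP_three (hF : Fintype.card F = 3) : CharP F 3 := by
  obtain ⟨p, hp⟩ := CharP.exists F
  obtain ⟨m, hp', hm⟩ := FiniteField.card F p
  have h3 : p = 3 := ((Nat.prime_dvd_prime_iff_eq hp' Nat.prime_three).1
    (hF ▸ hm ▸ dvd_pow_self p m.pos.ne'))
  rwa [← h3]

theorem order_three_five : orderOf ((3 : ℕ) : ZMod 5) = 4 := by
  rw [orderOf_eq_iff (by norm_num)]
  decide

theorem order_three_seven : orderOf ((3 : ℕ) : ZMod 7) = 6 := by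
  rw [orderOf_eq_iff (by norm_num)]
  decide

theorem order_three_thirteen : orderOf ((3 : ℕ) : ZMod 13) = 3 := by
  rw [orderOf_eq_iff (by norm_num)]
  decide

variable {V : Type*} [AddCommGroup V] [Module F V] [FiniteDimensional F V]

/-- A fixed-point-free map of order thirteen has invariant subspaces of dimension divisible by three. -/
theorem three_dvd_finrank (hF : Fintype.card F = 3) {x : V ≃ₗ[F] V} (hx : x ^ 13 = 1)
    (hfpf : ∀ v, x v = v → v = 0) {W : Submodule F V} (hW : ∀ v ∈ W, x v ∈ W) :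
    3 ∣ finrank F W := by
  classical
  have := Module.finite_of_finite F (M := V)
  have : Fact (Nat.Prime 13) := ⟨by norm_num⟩
  let f : W → W := fun v => ⟨x v, hW v v.2⟩
  have hf : Function.Injective f := fun v w e =>
    Subtype.ext (x.injective (congrArg Subtype.val e))
  let σ : Equiv.Perm W := Equiv.ofBijective f (Finite.injective_iff_bijective.1 hf)
  have hpow : ∀ (n : ℕ) (v : W), ((σ ^ n) v : V) = (x ^ n) v := by
    intro n
    induction n with
    | zero => intro v; rfl
    | succ n ih =>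
      intro v
      rw [pow_succ', Equiv.Perm.mul_apply, pow_succ', LinearEquiv.mul_apply, ← ih]
      rfl
  have hσ : σ ^ 13 = 1 := Equiv.ext fun v => Subtype.ext (by rw [hpow, hx]; rfl)
  let := Fintype.ofFinite W
  have hmod := Equiv.Perm.card_compl_support_modEq (p := 13) (n := 1) (σ := σ) (by simpa using hσ)
  have hcompl : σ.supportᶜ = {0} := by
    ext v
    simp only [Finset.mem_compl, Equiv.Perm.mem_support, not_not, Finset.mem_singleton]
    exact ⟨fun e => Subtype.ext (hfpf v (congrArg Subtype.val e)),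
      fun e => Subtype.ext (by subst e; exact map_zero x)⟩
  rw [hcompl, Finset.card_singleton, Module.card_eq_pow_finrank (K := F) (V := W), hF] at hmod
  have h1 : ((3 : ℕ) : ZMod 13) ^ finrank F W = 1 := by
    rw [← Nat.cast_pow, ← Nat.cast_one, ZMod.natCast_eq_natCast_iff]
    exact hmod.symm
  have := orderOf_dvd_of_pow_eq_one h1
  rwa [order_three_thirteen] at this

theorem comm_aeval {x g : V ≃ₗ[F] V} (h : ∀ v, g (x v) = x (g v)) (q : F[X]) (v : V) :
    g (aeval (x : Module.End F V) q v) = aeval (x : Module.End F V) q (g v) := by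
  induction q using Polynomial.induction_on generalizing v with
  | C c => simp [Module.algebraMap_end_apply]
  | add p q hp hq => simp [hp, hq]
  | monomial n c ih =>
    rw [pow_succ, ← mul_assoc, map_mul, aeval_X, Module.End.mul_apply, Module.End.mul_apply, ih]
    exact congrArg _ (h v)

/-- No element `g` with `g² = -1` commutes with an element of order thirteen. -/
theorem neg_one_case (hF : Fintype.card F = 3) {B : BilinForm F V} (hB : B.Nondegenerate)
    (hdim : finrank F V = 6) {x g : V ≃ₗ[F] V} (hx : x ^ 13 = 1)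
    (hfpf : ∀ v, x v = v → v = 0) (hxB : ∀ u v, B (x u) (x v) = B u v)
    (hgx : ∀ v, g (x v) = x (g v)) (hgg : ∀ v, g (g v) = -v) : False := by
  classical
  have : Nontrivial V := Module.nontrivial_of_finrank_pos (R := F) (by omega)
  set c : Module.End F V := (x : Module.End F V)
  -- an irreducible polynomial with a kernel
  obtain ⟨f, hfm, hfi, hker⟩ : ∃ f : F[X], f.Monic ∧ Irreducible f ∧ ∃ v, v ≠ 0 ∧ aeval c f v = 0 := by
    have hint : IsIntegral F c := Algebra.IsIntegral.isIntegral c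
    obtain ⟨f, hfm, hfi, q, hq⟩ :=
      Polynomial.exists_monic_irreducible_factor (minpoly F c) (minpoly.not_isUnit F c)
    refine ⟨f, hfm, hfi, ?_⟩
    by_contra hno
    push Not at hno
    have hq0 : q ≠ 0 := fun e => minpoly.ne_zero hint (by rw [hq, e, mul_zero])
    have hcq : aeval c q = 0 := by
      refine LinearMap.ext fun v => by_contra fun hv => hno _ hv ?_
      rw [← Module.End.mul_apply, ← map_mul, ← hq, minpoly.aeval]
      rfl
    have h1 := minpoly.degree_le_of_ne_zero F c hq0 hcq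
    rw [hq, Polynomial.degree_mul] at h1
    have h2 := hfi.degree_pos
    rw [Polynomial.degree_eq_natDegree hfm.ne_zero, Polynomial.degree_eq_natDegree hq0] at h1
    rw [Polynomial.degree_eq_natDegree hfm.ne_zero] at h2
    norm_cast at h1 h2
    omega
  obtain ⟨v₀, hv₀, hfv₀⟩ := hker
  have hdiv : ∀ q : F[X], aeval c q v₀ = 0 → f ∣ q := fun q hq => by
    by_contra hnd
    obtain ⟨s, t, hst⟩ := (hfi.coprime_iff_not_dvd).2 hnd
    have h1 := congrArg (fun p => aeval c p v₀) hst
    simp [hfv₀, hq] at h1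
    exact hv₀ h1.symm
  have hcpow : ∀ (n : ℕ) v, (c ^ n) v = (x ^ n) v := fun n v => by
    rw [← toEnd_pow]; rfl
  have hd13 : f ∣ X ^ 13 - 1 := hdiv _ (by
    rw [map_sub, map_pow, aeval_X, map_one, LinearMap.sub_apply, hcpow, hx]
    exact sub_self _)
  have hd27 : f ∣ X ^ (Nat.card F) ^ 3 - X := by
    rw [Nat.card_eq_fintype_card, hF]
    refine hd13.trans ⟨(X ^ 13 + 1) * X, ?_⟩
    ring
  have hfd := hfi.natDegree_dvd_of_dvd_X_pow_card_pow_sub_X hd27
  have hd3 : f.natDegree = 3 := by
    rcases (Nat.dvd_prime Nat.prime_three).1 hfd with h1 | h1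
    swap
    · exact h1
    exfalso
    have he : f = X + C (f.coeff 0) := hfm.eq_X_add_C h1
    have hv : x v₀ = -f.coeff 0 • v₀ := by
      have h3 := hfv₀
      rw [he, map_add, aeval_X, aeval_C, LinearMap.add_apply, Module.algebraMap_end_apply] at h3
      rw [neg_smul]
      exact eq_neg_of_add_eq_zero_left h3
    set r := -f.coeff 0
    have hp : ∀ n : ℕ, (x ^ n) v₀ = r ^ n • v₀ := by
      intro n
      induction n with
      | zero => simp
      | succ n ih => rw [pow_succ', LinearEquiv.mul_apply, ih, map_smul, hv, smul_smul, pow_succ]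
    have h13 : r ^ 13 = 1 := by
      have h3 := hp 13
      rw [hx] at h3
      have h4 : (r ^ 13 - 1) • v₀ = 0 := by
        rw [sub_smul, one_smul, ← h3]
        exact sub_self _
      exact sub_eq_zero.1 ((smul_eq_zero.1 h4).resolve_right hv₀)
    have hr0 : r ≠ 0 := fun e => by simp [e] at h13
    have h3 := FiniteField.pow_card_sub_one_eq_one r hr0
    rw [hF] at h3
    rw [show 13 = 2 * 6 + 1 from rfl, pow_succ, pow_mul, h3, one_pow, one_mul] at h13
    exact hv₀ (hfpf v₀ (by rw [hv, h13, one_smul]))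
  -- the kernel is invariant under both maps
  set W := LinearMap.ker (aeval c f) with hWdef
  have hWx : ∀ v ∈ W, x v ∈ W := fun v hv => by
    rw [hWdef, LinearMap.mem_ker] at hv ⊢
    rw [← comm_aeval (g := x) (fun _ => rfl), hv, map_zero]
  have hWg : ∀ v ∈ W, (g : V →ₗ[F] V) v ∈ W := fun v hv => by
    rw [hWdef, LinearMap.mem_ker] at hv ⊢
    show aeval c f (g v) = 0
    rw [← comm_aeval hgx, hv, map_zero]
  have heven : finrank F W ≠ 3 := by
    intro h3
    let gW : Module.End F W := (g : V →ₗ[F] V).restrict hWg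
    have hsq : gW * gW = (-1 : F) • 1 := LinearMap.ext fun v => Subtype.ext (by
      show g (g v) = (-1 : F) • (v : V)
      rw [hgg, neg_one_smul])
    have h1 := congrArg LinearMap.det hsq
    rw [map_mul, LinearMap.det_smul, h3, map_one, mul_one] at h1
    exact no_square_neg_one hF _ (h1.trans (by norm_num))
  have hpos : 0 < finrank F W := Nat.pos_of_ne_zero fun e =>
    hv₀ (by
      have hm : v₀ ∈ W := LinearMap.mem_ker.2 hfv₀
      rwa [Submodule.finrank_eq_zero.1 e, Submodule.mem_bot] at hm)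
  have htop : W = ⊤ := by
    refine Submodule.eq_top_of_finrank_eq ?_
    obtain ⟨k, hk⟩ := three_dvd_finrank hF hx hfpf hWx
    have := Submodule.finrank_le W
    omega
  -- the reciprocal polynomial
  obtain ⟨a, b, e, hf⟩ : ∃ a b e : F, f = X ^ 3 + C a * X ^ 2 + C b * X + C e := by
    refine ⟨f.coeff 2, f.coeff 1, f.coeff 0, ?_⟩
    conv_lhs => rw [hfm.as_sum, hd3, Finset.sum_range_succ, Finset.sum_range_succ,
      Finset.sum_range_succ, Finset.sum_range_zero]
    ring
  have hf0 : ∀ v, x (x (x v)) + a • x (x v) + b • x v + e • v = 0 := fun v => by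
    have h1 : aeval c f v = 0 := LinearMap.mem_ker.1 (hWdef ▸ htop ▸ Submodule.mem_top)
    rw [hf] at h1
    simpa [pow_succ, Module.End.mul_apply, Module.algebraMap_end_apply, c] using h1
  have hrec : ∀ v, v + a • x v + b • x (x v) + e • x (x (x v)) = 0 := fun v => hB.2 _ fun u => by
    have h1 := congrArg (fun w => B w (x (x (x v)))) (hf0 u)
    simp only [map_add, map_smul, LinearMap.add_apply, LinearMap.smul_apply, map_zero,
      LinearMap.zero_apply, smul_eq_mul, hxB] at h1
    simp only [map_add, map_smul, smul_eq_mul]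
    exact h1
  set q : F[X] := C (b - e * a) * X ^ 2 + C (a - e * b) * X + C (1 - e * e) with hq
  have hqv : aeval c q v₀ = 0 := by
    have h1 := hrec v₀
    have h2 := congrArg (fun w => e • w) (hf0 v₀)
    simp only [smul_add, smul_smul, smul_zero] at h2
    simp [hq, pow_succ, Module.End.mul_apply, Module.algebraMap_end_apply, c]
    linear_combination (norm := module) h1 - h2
  have hq0 : q = 0 := by
    by_contra hne
    have h1 := Polynomial.natDegree_le_of_dvd (hdiv q hqv) hne
    have h2 : q.natDegree ≤ 2 := by rw [hq]; compute_degree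
    omega
  have h2 : b - e * a = 0 := by simpa [hq, coeff_one, -map_sub, -map_mul] using congrArg (fun p : F[X] => p.coeff 2) hq0
  have h0 : 1 - e * e = 0 := by simpa [hq, -map_sub, -map_mul] using congrArg (fun p : F[X] => p.coeff 0) hq0
  have hroot : f.IsRoot (-e) := by
    rw [Polynomial.IsRoot.def, hf]
    simp
    linear_combination e * h0 - e * h2
  have h1 := Polynomial.degree_eq_one_of_irreducible_of_root hfi hroot
  rw [Polynomial.degree_eq_natDegree hfm.ne_zero, hd3] at h1
  norm_cast at h1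

section Graph

variable {B : BilinForm F (Fin (3 + 3) → F)} (hF : Fintype.card F = 3) (hA : B.IsAlt)
  (hB : B.Nondegenerate) {G : Type*} [Group G] (π : altGroup B →* G)
  (hπs : Function.Surjective π)
  (hπ : ∀ g : altGroup B, π g = 1 ↔
    ∃ c : F, ∀ x, (g : (Fin (3 + 3) → F) ≃ₗ[F] (Fin (3 + 3) → F)) x = c • x)
  (hc : ∀ (g : altGroup B) (c : F),
    (∀ x, (g : (Fin (3 + 3) → F) ≃ₗ[F] (Fin (3 + 3) → F)) x = c • x) → c * c = 1)

include hF hA hB hπs hπ hc

theorem not_two_thirteen : ¬ HasPair G 2 13 := by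
  rintro ⟨a₁, b₁, hcomm, hoa, hob⟩
  have := charP_three hF
  have h2 : (2 : F) ≠ 0 := Forms.two_ne_zero_of_odd rfl (by rw [hF]; decide)
  have h13 : Nat.Prime 13 := by norm_num
  have hodd : Odd 13 := by decide
  obtain ⟨g, rfl⟩ := hπs a₁
  obtain ⟨x, rfl, hox⟩ := sp_odd_lift π hπ hc hπs hodd b₁ hob
  have hgx := sp_lift_commute π hπ hc hodd hox hcomm
  rw [← Subgroup.orderOf_coe] at hox
  set xv := (x : (Fin (3 + 3) → F) ≃ₗ[F] (Fin (3 + 3) → F))
  set gv := (g : (Fin (3 + 3) → F) ≃ₗ[F] (Fin (3 + 3) → F))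
  have hgxv : ∀ v, gv (xv v) = xv (gv v) := fun v => congrArg (fun k : altGroup B =>
    ((k : (Fin (3 + 3) → F) ≃ₗ[F] (Fin (3 + 3) → F)) v : Fin (3 + 3) → F)) hgx.eq
  have hx13 : xv ^ 13 = 1 := by rw [← hox, pow_orderOf_eq_one]
  have hrF : ((13 : ℕ) : F) ≠ 0 := fun h => by
    rw [CharP.cast_eq_zero_iff F 3] at h
    norm_num at h
  have hk : 3 = orderOf ((Fintype.card F : ℕ) : ZMod 13) := by rw [hF, order_three_thirteen]
  have hη : EtaOf 3 3 := Or.inl ⟨by decide, rfl⟩
  have hx1 : xv ≠ 1 := fun h => by rw [h, orderOf_one] at hox; omega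
  have hbd := two_eta_le hA hB x.2.1 h13 (by norm_num) hrF hx13 hx1 hk hη
  have hrB : ∀ v w, B v w = 0 → B w v = 0 := fun v w h => by
    rw [← LinearMap.IsAlt.neg hA, h, neg_zero]
  have hcompl := isCompl_pos_moved hB.1 hrB x.2.1 hx13 hrF
  have hle := Submodule.finrank_le (movedSpace xv)
  rw [Module.finrank_fin_fun] at hle
  have htop : movedSpace xv = ⊤ :=
    Submodule.eq_top_of_finrank_eq ((le_antisymm hle hbd).trans (Module.finrank_fin_fun F).symm)
  have hfpf : ∀ v, xv v = v → v = 0 := fun v hv =>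
    Submodule.disjoint_def.1 hcompl.disjoint v hv (htop ▸ Submodule.mem_top)
  have hgns : ¬ ∃ c : F, ∀ v, gv v = c • v := fun h => by
    rw [(hπ g).2 h, orderOf_one] at hoa
    omega
  obtain ⟨c, hcg⟩ := (hπ (g * g)).1 (by rw [map_mul, ← pow_two, ← hoa, pow_orderOf_eq_one])
  rcases mul_self_eq_one_iff.1 (hc (g * g) c hcg) with rfl | rfl
  swap
  · exact neg_one_case hF hB (Module.finrank_fin_fun F) hx13 hfpf x.2.1 hgxv fun v => by
      have := hcg v
      rwa [alt_mul_apply, neg_one_smul] at this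
  have hgg : ∀ v, gv (gv v) = v := fun v => by
    have := hcg v
    rwa [alt_mul_apply, one_smul] at this
  -- the two eigenspaces
  let E : F → Submodule F (Fin (3 + 3) → F) := fun t =>
    LinearMap.ker ((gv : (Fin (3 + 3) → F) →ₗ[F] (Fin (3 + 3) → F)) - t • LinearMap.id)
  have hE : ∀ t v, v ∈ E t ↔ gv v = t • v := fun t v => by simp [E, sub_eq_zero]
  have hsplit : ∀ v, ∃ p ∈ E 1, ∃ q ∈ E (-1), v = p + q := fun v => by
    refine ⟨(2 : F)⁻¹ • (v + gv v), (hE _ _).2 ?_, (2 : F)⁻¹ • (v - gv v), (hE _ _).2 ?_, ?_⟩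
    · rw [map_smul, map_add, hgg, one_smul, add_comm (gv v) v]
    · rw [map_smul, map_sub, hgg, neg_one_smul, ← smul_neg, neg_sub]
    · rw [← smul_add, show v + gv v + (v - gv v) = (2 : F) • v by rw [two_smul]; abel, smul_smul,
        inv_mul_cancel₀ h2, one_smul]
  have horth : ∀ u ∈ E 1, ∀ w ∈ E (-1), B u w = 0 := fun u hu w hw => by
    have h1 := g.2.1 u w
    rw [show gv u = u from by rw [(hE 1 u).1 hu, one_smul],
      show gv w = -w from by rw [(hE (-1) w).1 hw, neg_one_smul], map_neg] at h1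
    have h3 : (2 : F) * B u w = 0 := by linear_combination -h1
    exact (mul_eq_zero.1 h3).resolve_left h2
  have hne : E 1 ≠ ⊤ := fun h => hgns ⟨1, fun v => (hE 1 v).1 (h ▸ Submodule.mem_top)⟩
  have hne0 : E 1 ≠ ⊥ := fun h => hgns ⟨-1, fun v => by
    obtain ⟨p, hp, q, hq, rfl⟩ := hsplit v
    rw [h, Submodule.mem_bot] at hp
    rw [hp, zero_add]
    exact (hE _ _).1 hq⟩
  obtain ⟨v, hv, hv0⟩ := Submodule.exists_mem_ne_zero_of_ne_bot hne0
  have h6 := two_eta_le_of_sub hA x.2.1 (S := E 1)
    (fun w hw => (hE _ _).2 (by rw [hgxv, (hE _ _).1 hw, one_smul, one_smul]))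
    (fun u hu h => hB.1 u fun w => by
      obtain ⟨p, hp, q, hq, rfl⟩ := hsplit w
      rw [map_add, h p hp, horth u hu q hq, add_zero])
    h13 (by norm_num) hrF hx13 ⟨v, hv, fun e => hv0 (hfpf v e)⟩ hk hη
  have h7 := Submodule.finrank_lt hne
  rw [Module.finrank_fin_fun] at h7
  omega

theorem edges (hdvd : ∀ t ∈ ({5, 7, 13} : Finset ℕ), t ∣ Nat.card G) {r s : ℕ} (hr : r.Prime)
    (hs : s.Prime) (hrs : r ≠ s) (hrm : r ∈ ({2, 3, 5, 7, 13} : Finset ℕ))
    (hsm : s ∈ ({2, 3, 5, 7, 13} : Finset ℕ)) :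
    HasPair G r s ↔
      (r, s) ∈ ({(2, 3), (3, 2), (2, 5), (5, 2), (2, 7), (7, 2), (3, 5), (5, 3)} :
        Finset (ℕ × ℕ)) := by
  classical
  have := charP_three hF
  have : Fact (Nat.Prime 3) := ⟨Nat.prime_three⟩
  have h2 : (2 : F) ≠ 0 := Forms.two_ne_zero_of_odd rfl (by rw [hF]; decide)
  have hF0 : ∀ t : ℕ, ¬ 3 ∣ t → (t : F) ≠ 0 := fun t ht h =>
    ht ((CharP.cast_eq_zero_iff F 3 t).1 h)
  have hord5 : 4 = orderOf ((Fintype.card F : ℕ) : ZMod 5) := by rw [hF, order_three_five]
  have hord7 : 6 = orderOf ((Fintype.card F : ℕ) : ZMod 7) := by rw [hF, order_three_seven]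
  have hord13 : 3 = orderOf ((Fintype.card F : ℕ) : ZMod 13) := by rw [hF, order_three_thirteen]
  have hη5 : EtaOf 4 2 := Or.inr ⟨by decide, rfl⟩
  have hη7 : EtaOf 6 3 := Or.inr ⟨by decide, rfl⟩
  have hη13 : EtaOf 3 3 := Or.inl ⟨by decide, rfl⟩
  have e35 : HasPair G 3 5 := by
    refine hasPair_symm ((mem_range_iff_hasPair (by norm_num) Nat.prime_three (by norm_num)).1 ?_)
    by_contra hno
    have := (char_criterion (p := 3) hA hB π hπs hπ hc (r := 5) (by norm_num) (by norm_num)
      (by norm_num) hord5 hη5).1 hno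
    omega
  have e23 : HasPair G 2 3 :=
    (case_two_char h2 le_rfl hA hB π hπs hπ hc (p := 3)).2
  have e25 : HasPair G 2 5 := by
    obtain ⟨β, hβA, hβ⟩ := exists_altForm (F := F) (d := 2 + 2) (k := 2) rfl
    obtain ⟨a, ha, haN⟩ := exists_torus_plus (by norm_num : 0 < 2) β hβA hβ
    exact sp_two_of_block h2 le_rfl hA hB π hπs hπ hc (by norm_num) (by norm_num) (i := 2)
      (by norm_num) (by norm_num) (by rw [hF]; norm_num) (by rw [hF]; norm_num) hβA hβ ha haN
  have e27 : HasPair G 2 7 := by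
    obtain ⟨a, ha, haN⟩ := exists_torus_plus (by norm_num : 0 < 3) B hA hB
    exact sp_two_of_torus h2 le_rfl hA hB π hπs hπ hc (by norm_num) (by norm_num)
      (by rw [hF]; norm_num) (by rw [hF]; norm_num) (by rw [hF]; norm_num) ha haN
  have n37 : ¬ HasPair G 3 7 := fun h =>
    (char_criterion (p := 3) hA hB π hπs hπ hc (r := 7) (by norm_num) (by norm_num) (by norm_num)
      hord7 hη7).2 (by norm_num)
      ((mem_range_iff_hasPair (by norm_num) Nat.prime_three (by norm_num)).2 (hasPair_symm h))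
  have n313 : ¬ HasPair G 3 13 := fun h =>
    (char_criterion (p := 3) hA hB π hπs hπ hc (r := 13) (by norm_num) (by norm_num) (by norm_num)
      hord13 hη13).2 (by norm_num)
      ((mem_range_iff_hasPair (by norm_num) Nat.prime_three (by norm_num)).2 (hasPair_symm h))
  have n57 : ¬ HasPair G 5 7 := fun h =>
    (odd_criterion hA hB π hπs hπ hc (r := 5) (s := 7) (by norm_num) (by norm_num) (by norm_num)
      (by norm_num) (hF0 5 (by norm_num)) (hF0 7 (by norm_num)) (by norm_num)
      (by rw [hF]; norm_num) (by rw [hF]; norm_num) (hdvd 7 (by decide)) hord5 hord7 hη5 hη7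
      (by norm_num)).2 ⟨by norm_num, by rintro ⟨t, -, ht⟩; omega⟩
      ((mem_range_iff_hasPair (by norm_num) (by norm_num) (by norm_num)).2 h)
  have n513 : ¬ HasPair G 5 13 := fun h =>
    (odd_criterion hA hB π hπs hπ hc (r := 5) (s := 13) (by norm_num) (by norm_num) (by norm_num)
      (by norm_num) (hF0 5 (by norm_num)) (hF0 13 (by norm_num)) (by norm_num)
      (by rw [hF]; norm_num) (by rw [hF]; norm_num) (hdvd 13 (by decide)) hord5 hord13 hη5 hη13
      (by norm_num)).2 ⟨by norm_num, by rintro ⟨t, -, ht⟩; omega⟩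
      ((mem_range_iff_hasPair (by norm_num) (by norm_num) (by norm_num)).2 h)
  have n713 : ¬ HasPair G 7 13 := fun h =>
    (odd_criterion hA hB π hπs hπ hc (r := 7) (s := 13) (by norm_num) (by norm_num) (by norm_num)
      (by norm_num) (hF0 7 (by norm_num)) (hF0 13 (by norm_num)) (by norm_num)
      (by rw [hF]; norm_num) (by rw [hF]; norm_num) (hdvd 13 (by decide)) hord7 hord13 hη7 hη13
      le_rfl).2 ⟨by norm_num, by rintro ⟨t, -, ht⟩; omega⟩
      ((mem_range_iff_hasPair (by norm_num) (by norm_num) (by norm_num)).2 h)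
  have n213 := not_two_thirteen hF hA hB π hπs hπ hc
  simp only [Finset.mem_insert, Finset.mem_singleton] at hrm hsm
  rcases hrm with rfl | rfl | rfl | rfl | rfl <;> rcases hsm with rfl | rfl | rfl | rfl | rfl <;>
    first
      | exact absurd rfl hrs
      | exact iff_of_true (by assumption) (by decide)
      | exact iff_of_true (hasPair_symm (by assumption)) (by decide)
      | exact iff_of_false (by assumption) (by decide)
      | exact iff_of_false (fun h => absurd (hasPair_symm h) (by assumption)) (by decide)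

end Graph

end Cfsg.Agent.PLocal.PSpSixThree
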