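/-
A group whose 2-subgroups are abelian and act quadratically has no offender, unless it moves a
four-group as the symmetric group of degree three or has a nontrivial normal 2-subgroup.
-/
import Cfsg.Agent.PLocal.ElemAb

set_option linter.unusedSectionVars false
set_option linter.style.haveILetI false

namespace Cfsg.Agent.PLocal

open Subgroup
open scoped commutatorElement

variable {Γ : Type*} [Group Γ] [Finite Γ]

/-- `Y` acts faithfully on the elementary abelian 2-group `V`, its 2-subgroups are abelian and act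
quadratically. -/
structure QuadSylow (V Y : Subgroup Γ) : Prop where
  comm : ∀ u ∈ V, ∀ v ∈ V, u * v = v * u
  sq : ∀ v ∈ V, v * v = 1
  norm : Y ≤ normalizer (V : Set Γ)
  faithful : ∀ y ∈ Y, (∀ v ∈ V, y * v = v * y) → y = 1
  abel : ∀ P : Subgroup Γ, P ≤ Y → IsPGroup 2 P → ∀ x ∈ P, ∀ y ∈ P, x * y = y * x
  quad : ∀ P : Subgroup Γ, P ≤ Y → IsPGroup 2 P → ∀ x ∈ P, ∀ y ∈ P, ∀ v ∈ V, y * ⁅x, v⁆ = ⁅x, v⁆ * y

variable {V Y : Subgroup Γ}

/-- `|X| |C_V(X)|`. -/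
noncomputable def qMeasure (V X : Subgroup Γ) : ℕ :=
  Nat.card X * Nat.card (V ⊓ centralizer (X : Set Γ) : Subgroup Γ)

/-- `X` is a largest subgroup of largest measure. -/
structure IsQMember (V Y X : Subgroup Γ) : Prop where
  le : X ≤ Y
  isP : IsPGroup 2 X
  ne : X ≠ ⊥
  max : ∀ Z : Subgroup Γ, Z ≤ Y → IsPGroup 2 Z → Z ≠ ⊥ →
    qMeasure V Z ≤ qMeasure V X ∧ (qMeasure V X ≤ qMeasure V Z → Nat.card Z ≤ Nat.card X)

namespace QuadSylow

variable (hq : QuadSylow V Y)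
include hq

theorem conj_mem {y v : Γ} (hy : y ∈ Y) (hv : v ∈ V) : y * v * y⁻¹ ∈ V :=
  (mem_normalizer_iff.mp (hq.norm hy) v).mp hv

theorem comm_mem {y v : Γ} (hy : y ∈ Y) (hv : v ∈ V) : ⁅y, v⁆ ∈ V := by
  rw [commutatorElement_def]; exact mul_mem (hq.conj_mem hy hv) (inv_mem hv)

theorem conj_eq {y v : Γ} : y * v * y⁻¹ = ⁅y, v⁆ * v := by rw [commutatorElement_def]; group

theorem commute_of_cross {x y : Γ} (hx : x ∈ Y) (hy : y ∈ Y)
    (h1 : ∀ v ∈ V, x * ⁅y, v⁆ = ⁅y, v⁆ * x) (h2 : ∀ v ∈ V, y * ⁅x, v⁆ = ⁅x, v⁆ * y) : x * y = y * x := by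
  refine inv_mul_eq_one.mp (hq.faithful _ (mul_mem (inv_mem (mul_mem hx hy)) (mul_mem hy hx)) fun v hv => ?_)
  have e1 : x * y * v * (x * y)⁻¹ = ⁅y, v⁆ * (⁅x, v⁆ * v) := by
    rw [show x * y * v * (x * y)⁻¹ = x * (y * v * y⁻¹) * x⁻¹ by group, hq.conj_eq (y := y) (v := v),
      ← hq.conj_eq (y := x) (v := v),
      show x * (⁅y, v⁆ * v) * x⁻¹ = x * ⁅y, v⁆ * x⁻¹ * (x * v * x⁻¹) by group, h1 v hv, mul_inv_cancel_right]
  have e2 : y * x * v * (y * x)⁻¹ = ⁅x, v⁆ * (⁅y, v⁆ * v) := by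
    rw [show y * x * v * (y * x)⁻¹ = y * (x * v * x⁻¹) * y⁻¹ by group, hq.conj_eq (y := x) (v := v),
      ← hq.conj_eq (y := y) (v := v),
      show y * (⁅x, v⁆ * v) * y⁻¹ = y * ⁅x, v⁆ * y⁻¹ * (y * v * y⁻¹) by group, h2 v hv, mul_inv_cancel_right]
  have e : y * x * v * (y * x)⁻¹ = x * y * v * (x * y)⁻¹ := by
    rw [e1, e2, ← mul_assoc, ← mul_assoc, hq.comm _ (hq.comm_mem hx hv) _ (hq.comm_mem hy hv)]
  calc (x * y)⁻¹ * (y * x) * v = (x * y)⁻¹ * (y * x * v * (y * x)⁻¹) * (y * x) := by group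
    _ = v * ((x * y)⁻¹ * (y * x)) := by rw [e]; group

theorem sq_eq_one {P : Subgroup Γ} (hP : P ≤ Y) (hP2 : IsPGroup 2 P) {x : Γ} (hx : x ∈ P) : x * x = 1 := by
  refine hq.faithful _ (mul_mem (hP hx) (hP hx)) fun v hv => ?_
  have h : x * x * v * (x * x)⁻¹ = v := by
    rw [show x * x * v * (x * x)⁻¹ = x * (x * v * x⁻¹) * x⁻¹ by group, hq.conj_eq (y := x) (v := v),
      show x * (⁅x, v⁆ * v) * x⁻¹ = x * ⁅x, v⁆ * x⁻¹ * (x * v * x⁻¹) by group,
      hq.quad P hP hP2 x hx x hx v hv, mul_inv_cancel_right, hq.conj_eq (y := x) (v := v), ← mul_assoc,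
      hq.sq _ (hq.comm_mem (hP hx) hv), one_mul]
  exact mul_inv_eq_iff_eq_mul.mp h

theorem comm_mem_fixed {P : Subgroup Γ} (hP : P ≤ Y) (hP2 : IsPGroup 2 P) {x v : Γ} (hx : x ∈ P)
    (hv : v ∈ V) : ⁅x, v⁆ ∈ V ⊓ centralizer (P : Set Γ) :=
  ⟨hq.comm_mem (hP hx) hv, mem_centralizer_iff.mpr fun y hy => hq.quad P hP hP2 x hx y hy v hv⟩

theorem card_fixed_sup (A B : Subgroup Γ) :
    Nat.card ((V ⊓ centralizer (A : Set Γ)) ⊔ (V ⊓ centralizer (B : Set Γ)) : Subgroup Γ) *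
      Nat.card ((V ⊓ centralizer (A : Set Γ)) ⊓ (V ⊓ centralizer (B : Set Γ)) : Subgroup Γ) =
    Nat.card (V ⊓ centralizer (A : Set Γ) : Subgroup Γ) * Nat.card (V ⊓ centralizer (B : Set Γ) : Subgroup Γ) :=
  card_sup_mul_card_inf ((show V ⊓ centralizer (A : Set Γ) ≤
    centralizer ((V ⊓ centralizer (B : Set Γ) : Subgroup Γ) : Set Γ) from fun u hu =>
      mem_centralizer_iff.mpr fun v hv => hq.comm v hv.1 u hu.1).trans (centralizer_le_normalizer _))

omit hq in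
theorem fixed_sup (A B : Subgroup Γ) :
    V ⊓ centralizer ((A ⊔ B : Subgroup Γ) : Set Γ) =
      (V ⊓ centralizer (A : Set Γ)) ⊓ (V ⊓ centralizer (B : Set Γ)) := by
  refine le_antisymm (le_inf (inf_le_inf_left _ (centralizer_le (le_sup_left : A ≤ A ⊔ B)))
    (inf_le_inf_left _ (centralizer_le (le_sup_right : B ≤ A ⊔ B)))) (le_inf (inf_le_left.trans inf_le_left) ?_)
  exact le_centralizer_iff.mp (sup_le (le_centralizer_iff.mp (inf_le_left.trans inf_le_right))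
    (le_centralizer_iff.mp (inf_le_right.trans inf_le_right)))

theorem member_conj {A : Subgroup Γ} (hA : IsQMember V Y A) {g : Γ} (hg : g ∈ Y) :
    IsQMember V Y (A.map (MulAut.conj g).toMonoidHom) := by
  set A' := A.map (MulAut.conj g).toMonoidHom
  have hle : A' ≤ Y := by
    rintro _ ⟨a, ha, rfl⟩
    exact mul_mem (mul_mem hg (hA.le ha)) (inv_mem hg)
  have hc : Nat.card A' = Nat.card A :=
    Subgroup.card_map_of_injective (K := A) (f := (MulAut.conj g).toMonoidHom) (MulAut.conj g).injective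
  have hC : (V ⊓ centralizer (A : Set Γ)).map (MulAut.conj g).toMonoidHom ≤ V ⊓ centralizer (A' : Set Γ) := by
    rintro _ ⟨v, hv, rfl⟩
    refine ⟨hq.conj_mem hg hv.1, mem_centralizer_iff.mpr ?_⟩
    rintro _ ⟨a, ha, rfl⟩
    rw [← map_mul, ← map_mul, mem_centralizer_iff.mp hv.2 a ha]
  have hm : qMeasure V A ≤ qMeasure V A' := by
    rw [qMeasure, qMeasure, hc, ← Subgroup.card_map_of_injective (K := V ⊓ centralizer (A : Set Γ))
      (f := (MulAut.conj g).toMonoidHom) (MulAut.conj g).injective]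
    exact Nat.mul_le_mul_left _ (Subgroup.card_le_of_le hC)
  refine ⟨hle, hA.isP.map _, fun h => hA.ne ((Subgroup.map_eq_bot_iff_of_injective A
    (MulAut.conj g).injective).mp h), fun Z h1 h2 h3 => ⟨((hA.max Z h1 h2 h3).1).trans hm, fun h => ?_⟩⟩
  rw [hc]
  exact (hA.max Z h1 h2 h3).2 (hm.trans h)

omit hq in
theorem member_eq {A B : Subgroup Γ} (hA : IsQMember V Y A) (hB : IsQMember V Y B) :
    Nat.card A = Nat.card B ∧ qMeasure V A = qMeasure V B ∧
      Nat.card (V ⊓ centralizer (A : Set Γ) : Subgroup Γ) = Nat.card (V ⊓ centralizer (B : Set Γ) : Subgroup Γ) := by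
  obtain ⟨h1, h2⟩ := hA.max B hB.le hB.isP hB.ne
  obtain ⟨h3, h4⟩ := hB.max A hA.le hA.isP hA.ne
  have hc := le_antisymm (h4 h1) (h2 h3)
  have hm := le_antisymm h3 h1
  refine ⟨hc, hm, Nat.eq_of_mul_eq_mul_left (Nat.card_pos (α := A)) ?_⟩
  simpa only [qMeasure, hc] using hm

/-- Members lying in a common 2-group coincide. -/
theorem member_unique {A B P : Subgroup Γ} (hA : IsQMember V Y A) (hB : IsQMember V Y B)
    (hV : Nat.card V ≤ qMeasure V A) (hP : P ≤ Y) (hP2 : IsPGroup 2 P) (hAP : A ≤ P) (hBP : B ≤ P) : A = B := by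
  have hn : A ≤ normalizer (B : Set Γ) := (show A ≤ centralizer (B : Set Γ) from fun a ha =>
    mem_centralizer_iff.mpr fun b hb => hq.abel P hP hP2 b (hBP hb) a (hAP ha)).trans (centralizer_le_normalizer _)
  obtain ⟨hc, hm, -⟩ := member_eq hA hB
  have hDP : A ⊔ B ≤ P := sup_le hAP hBP
  have hD0 : A ⊔ B ≠ ⊥ := fun h => hA.ne (le_bot_iff.mp (h ▸ le_sup_left))
  obtain ⟨h1, h2⟩ := hA.max (A ⊔ B) (hDP.trans hP) (hP2.to_le hDP) hD0
  have hI : qMeasure V (A ⊓ B) ≤ qMeasure V A := by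
    by_cases h : A ⊓ B = ⊥
    · rw [qMeasure, h, Subgroup.card_bot, one_mul]
      exact (Subgroup.card_le_of_le inf_le_left).trans hV
    · exact (hA.max _ (inf_le_left.trans hA.le) (hA.isP.to_le inf_le_left) h).1
  have key : qMeasure V A * qMeasure V B ≤ qMeasure V (A ⊔ B) * qMeasure V (A ⊓ B) := by
    simp only [qMeasure, fixed_sup A B]
    have hle : (V ⊓ centralizer (A : Set Γ)) ⊔ (V ⊓ centralizer (B : Set Γ)) ≤
        V ⊓ centralizer ((A ⊓ B : Subgroup Γ) : Set Γ) :=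
      sup_le (inf_le_inf_left _ (centralizer_le (inf_le_left : A ⊓ B ≤ A)))
        (inf_le_inf_left _ (centralizer_le (inf_le_right : A ⊓ B ≤ B)))
    have e := card_sup_mul_card_inf hn
    have e' := hq.card_fixed_sup A B
    calc _ = (Nat.card A * Nat.card B) * (Nat.card (V ⊓ centralizer (A : Set Γ) : Subgroup Γ) *
          Nat.card (V ⊓ centralizer (B : Set Γ) : Subgroup Γ)) := by ring
      _ = (Nat.card (A ⊔ B : Subgroup Γ) * Nat.card (A ⊓ B : Subgroup Γ)) *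
          (Nat.card ((V ⊓ centralizer (A : Set Γ)) ⊔ (V ⊓ centralizer (B : Set Γ)) : Subgroup Γ) *
          Nat.card ((V ⊓ centralizer (A : Set Γ)) ⊓ (V ⊓ centralizer (B : Set Γ)) : Subgroup Γ)) := by rw [e, e']
      _ ≤ (Nat.card (A ⊔ B : Subgroup Γ) * Nat.card (A ⊓ B : Subgroup Γ)) *
          (Nat.card (V ⊓ centralizer ((A ⊓ B : Subgroup Γ) : Set Γ) : Subgroup Γ) *
          Nat.card ((V ⊓ centralizer (A : Set Γ)) ⊓ (V ⊓ centralizer (B : Set Γ)) : Subgroup Γ)) :=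
        Nat.mul_le_mul_left _ (Nat.mul_le_mul_right _ (Subgroup.card_le_of_le hle))
      _ = _ := by ring
  have hge : qMeasure V A ≤ qMeasure V (A ⊔ B) :=
    Nat.le_of_mul_le_mul_right (c := qMeasure V A)
      ((Nat.mul_le_mul_left _ hm.le).trans (key.trans (Nat.mul_le_mul_left _ hI)))
      (Nat.mul_pos Nat.card_pos Nat.card_pos)
  have hBA : B ≤ A := (Subgroup.eq_of_le_of_card_ge le_sup_left (h2 hge)).symm ▸ le_sup_right
  exact (Subgroup.eq_of_le_of_card_ge hBA hc.le).symm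

/-- A pair of distinct members generating a subgroup of least order. -/
def MinPair (V Y A B : Subgroup Γ) : Prop :=
  IsQMember V Y A ∧ IsQMember V Y B ∧ A ≠ B ∧ ∀ X Z : Subgroup Γ, IsQMember V Y X → IsQMember V Y Z → X ≠ Z →
    Nat.card (A ⊔ B : Subgroup Γ) ≤ Nat.card (X ⊔ Z : Subgroup Γ)

omit hq in
theorem minPair_symm {A B : Subgroup Γ} (h : MinPair V Y A B) : MinPair V Y B A :=
  ⟨h.2.1, h.1, h.2.2.1.symm, sup_comm A B ▸ h.2.2.2⟩

section pair

variable {A B : Subgroup Γ} (hp : MinPair V Y A B) (hV : Nat.card V ≤ qMeasure V A)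
include hp hV

/-- Outside the normalizer the commutator map is injective modulo the common fixed points. -/
theorem fixed_of_comm_mem {b u : Γ} (hb : b ∈ B) (hbA : A.map (MulAut.conj b).toMonoidHom ≠ A)
    (hu : u ∈ V ⊓ centralizer (A : Set Γ)) (hd : ⁅b, u⁆ ∈ V ⊓ centralizer (A : Set Γ)) :
    u ∈ V ⊓ centralizer (B : Set Γ) := by
  have hbb : b⁻¹ = b := inv_eq_of_mul_eq_one_right (hq.sq_eq_one hp.2.1.le hp.2.1.isP hb)
  have hw : b * u * b⁻¹ ∈ V ⊓ centralizer (A : Set Γ) := by rw [hq.conj_eq]; exact mul_mem hd hu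
  set A' := A.map (MulAut.conj b).toMonoidHom
  have hle : A ⊔ A' ≤ A ⊔ B := by
    refine sup_le le_sup_left ?_
    rintro _ ⟨a, ha, rfl⟩
    exact mul_mem (mul_mem (mem_sup_right hb) (mem_sup_left ha)) (inv_mem (mem_sup_right hb))
  have heq : A ⊔ A' = A ⊔ B :=
    Subgroup.eq_of_le_of_card_ge hle (hp.2.2.2 A A' hp.1 (hq.member_conj hp.1 (hp.2.1.le hb)) hbA.symm)
  have hmem : u ∈ V ⊓ centralizer ((A ⊔ A' : Subgroup Γ) : Set Γ) := by
    rw [fixed_sup]
    refine ⟨hu, hu.1, mem_centralizer_iff.mpr ?_⟩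
    rintro _ ⟨a, ha, rfl⟩
    show b * a * b⁻¹ * u = u * (b * a * b⁻¹)
    have h := mem_centralizer_iff.mp hw.2 a ha
    rw [hbb] at h ⊢
    calc b * a * b * u = b * (a * (b * u * b)) * b⁻¹ := by group
      _ = b * (b * u * b * a) * b⁻¹ := by rw [h]
      _ = b * b * u * (b * a * b⁻¹) := by group
      _ = u * (b * a * b) := by rw [hq.sq_eq_one hp.2.1.le hp.2.1.isP hb, one_mul, hbb]
  rw [heq, fixed_sup] at hmem
  exact hmem.2

theorem commute_of_normalizes {b : Γ} (hb : b ∈ B) (hbA : A.map (MulAut.conj b).toMonoidHom = A) :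
    ∀ a ∈ A, b * a = a * b := by
  intro a ha
  have hn : zpowers b ≤ normalizer (A : Set Γ) := zpowers_le.mpr (mem_normalizer_iff_map_conj_eq.mpr hbA)
  exact hq.abel _ (sup_le ((zpowers_le.mpr hb).trans hp.2.1.le) hp.1.le)
    ((hp.2.1.isP.to_le (zpowers_le.mpr hb)).to_sup_of_normal_right' hp.1.isP hn)
    b (mem_sup_left (mem_zpowers b)) a (mem_sup_right ha)

theorem exists_moving : ∃ b ∈ B, A.map (MulAut.conj b).toMonoidHom ≠ A := by
  by_contra h
  push Not at h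
  exact hp.2.2.1 (hq.member_unique hp.1 hp.2.1 hV (sup_le hp.1.le hp.2.1.le)
    (sup_comm B A ▸ hp.2.1.isP.to_sup_of_normal_right' hp.1.isP fun b hb => mem_normalizer_iff_map_conj_eq.mpr (h b hb))
    le_sup_left le_sup_right)

/-- Elements of `B` normalizing `A` centralize `C_V(A)`. -/
theorem fixes_of_normalizes {b : Γ} (hb : b ∈ B) (hbA : A.map (MulAut.conj b).toMonoidHom = A) :
    ∀ u ∈ V ⊓ centralizer (A : Set Γ), b * u = u * b := by
  obtain ⟨a, ha, haB⟩ := hq.exists_moving (minPair_symm hp) (by rwa [← (member_eq hp.1 hp.2.1).2.1])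
  set CA := V ⊓ centralizer (A : Set Γ)
  set CB := V ⊓ centralizer (B : Set Γ)
  have haY := hp.1.le ha
  let ψ : CB →* Γ :=
    { toFun := fun w => ⁅a, (w : Γ)⁆
      map_one' := by simp
      map_mul' := fun w w' => by
        have h := hq.comm _ w.2.1 _ (hq.comm_mem haY w'.2.1)
        show ⁅a, (w : Γ) * w'⁆ = _
        rw [commutatorElement_mul_right_eq_mul_conj, mul_assoc ⁅a, (w : Γ)⁆, h, ← mul_assoc, mul_inv_cancel_right] }
  set K := ψ.range
  have hK : K ≤ CA := by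
    rintro _ ⟨w, rfl⟩
    exact hq.comm_mem_fixed hp.1.le hp.1.isP ha w.2.1
  have hKF : K ⊓ (CA ⊓ CB) = ⊥ := by
    rw [eq_bot_iff]
    rintro _ ⟨⟨w, rfl⟩, hF⟩
    have hwA : (w : Γ) ∈ CA := hq.fixed_of_comm_mem (minPair_symm hp)
      (by rwa [← (member_eq hp.1 hp.2.1).2.1]) ha haB w.2 hF.2
    exact Subgroup.mem_bot.mpr (commutatorElement_eq_one_iff_mul_comm.mpr (mem_centralizer_iff.mp hwA.2 a ha))
  have hker : ψ.ker.map CB.subtype ≤ CA ⊓ CB := by
    rintro _ ⟨w, hw, rfl⟩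
    exact ⟨hq.fixed_of_comm_mem (minPair_symm hp) (by rwa [← (member_eq hp.1 hp.2.1).2.1]) ha haB w.2
      (by show ψ w ∈ _; rw [show ψ w = 1 from hw]; exact one_mem _), w.2⟩
  have htop : CA ≤ K ⊔ (CA ⊓ CB) := by
    refine le_of_eq (Subgroup.eq_of_le_of_card_ge (sup_le hK inf_le_left) ?_).symm
    have e := card_sup_mul_card_inf (show K ≤ normalizer ((CA ⊓ CB : Subgroup Γ) : Set Γ) from
      (fun x hx => centralizer_le_normalizer _ (mem_centralizer_iff.mpr fun y hy => hq.comm y hy.1.1 x (hK hx).1)))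
    rw [hKF, Subgroup.card_bot, mul_one] at e
    rw [(member_eq hp.1 hp.2.1).2.2, e, ← Subgroup.card_mul_index ψ.ker, Subgroup.index_ker,
      ← Subgroup.card_map_of_injective CB.subtype_injective (K := ψ.ker), mul_comm]
    exact Nat.mul_le_mul_left _ (Subgroup.card_le_of_le hker)
  intro u hu
  refine (le_centralizer_iff.mp (show zpowers b ≤ centralizer ((K ⊔ (CA ⊓ CB) : Subgroup Γ) : Set Γ) from
    zpowers_le.mpr ?_) (htop hu) |> fun h => mem_centralizer_iff.mp h b (mem_zpowers b))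
  refine le_centralizer_iff.mp (sup_le ?_ ?_) (mem_zpowers b)
  · rintro _ ⟨w, rfl⟩
    refine mem_centralizer_iff.mpr fun x hx => ?_
    obtain ⟨n, rfl⟩ := mem_zpowers_iff.mp hx
    have h1 : Commute b a := hq.commute_of_normalizes hp hV hb hbA a ha
    have h2 : Commute b (w : Γ) := mem_centralizer_iff.mp w.2.2 b hb
    exact ((h1.mul_right h2).mul_right h1.inv_right).mul_right h2.inv_right |>.zpow_left n
  · intro x hx
    refine mem_centralizer_iff.mpr fun y hy => ?_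
    obtain ⟨n, rfl⟩ := mem_zpowers_iff.mp hy
    exact (show Commute b x from mem_centralizer_iff.mp hx.2.2 b hb).zpow_left n

/-- Two subgroups of `B` and its conjugate with the same fixed points coincide. -/
theorem normalizes_of_fixes {a : Γ} (ha : a ∈ A) (hfix : ∀ w ∈ V ⊓ centralizer (B : Set Γ), a * w = w * a) :
    B.map (MulAut.conj a).toMonoidHom = B := by
  set B' := B.map (MulAut.conj a).toMonoidHom
  have hB' := hq.member_conj hp.2.1 (hp.1.le ha)
  have hfix' : ∀ w ∈ V ⊓ centralizer (B : Set Γ), w ∈ V ⊓ centralizer (B' : Set Γ) := by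
    intro w hw
    refine ⟨hw.1, mem_centralizer_iff.mpr ?_⟩
    rintro _ ⟨b, hb, rfl⟩
    have h1 : Commute a w := hfix w hw
    exact ((show Commute a w from h1).mul_left (mem_centralizer_iff.mp hw.2 b hb)).mul_left h1.inv_left
  have hCB : V ⊓ centralizer (B' : Set Γ) = V ⊓ centralizer (B : Set Γ) :=
    (Subgroup.eq_of_le_of_card_ge (fun w hw => hfix' w hw) (member_eq hB' hp.2.1).2.2.le).symm
  have hcomm : B' ≤ centralizer (B : Set Γ) := by
    intro y hy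
    refine mem_centralizer_iff.mpr fun x hx => hq.commute_of_cross (hp.2.1.le hx) (hB'.le hy) (fun v hv => ?_)
      fun v hv => ?_
    · have := hq.comm_mem_fixed hB'.le hB'.isP hy hv
      rw [hCB] at this
      exact mem_centralizer_iff.mp this.2 x hx
    · have := hq.comm_mem_fixed hp.2.1.le hp.2.1.isP hx hv
      rw [← hCB] at this
      exact mem_centralizer_iff.mp this.2 y hy
  exact hq.member_unique hB' hp.2.1 (by rwa [(member_eq hB' hp.1).2.1]) (sup_le hB'.le hp.2.1.le)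
    (hB'.isP.to_sup_of_normal_right' hp.2.1.isP (hcomm.trans (centralizer_le_normalizer _))) le_sup_left le_sup_right

/-- For `w ∈ C_V(B) ∖ C_V(A)` the commutators with `A` cover `C_V(A)` modulo the common fixed points. -/
theorem cover {w : Γ} (hw : w ∈ V ⊓ centralizer (B : Set Γ)) (hwA : w ∉ V ⊓ centralizer (A : Set Γ)) :
    ∀ u ∈ V ⊓ centralizer (A : Set Γ), ∃ a ∈ A, ∃ f ∈ (V ⊓ centralizer (A : Set Γ)) ⊓ (V ⊓ centralizer (B : Set Γ)),
      u = ⁅a, w⁆ * f := by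
  set CA := V ⊓ centralizer (A : Set Γ)
  set CB := V ⊓ centralizer (B : Set Γ)
  let φ : A →* Γ :=
    { toFun := fun a => ⁅(a : Γ), w⁆
      map_one' := by simp
      map_mul' := fun a a' => by
        have h := hq.quad A hp.1.le hp.1.isP a' a'.2 a a.2 w hw.1
        show ⁅(a : Γ) * a', w⁆ = _
        rw [commutatorElement_mul_left_eq_conj_mul, h, mul_inv_cancel_right,
          hq.comm _ (hq.comm_mem (hp.1.le a'.2) hw.1) _ (hq.comm_mem (hp.1.le a.2) hw.1)] }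
  set K := φ.range
  set A₀ := A ⊓ centralizer (CB : Set Γ)
  have hK : K ≤ CA := by
    rintro _ ⟨a, rfl⟩
    exact hq.comm_mem_fixed hp.1.le hp.1.isP a.2 hw.1
  have hA0 : ∀ a : A, φ a ∈ CA ⊓ CB → (a : Γ) ∈ A₀ := by
    intro a ha
    refine ⟨a.2, mem_centralizer_iff.mpr fun x hx => ?_⟩
    by_cases haB : B.map (MulAut.conj (a : Γ)).toMonoidHom = B
    · exact (hq.fixes_of_normalizes (minPair_symm hp) (by rwa [← (member_eq hp.1 hp.2.1).2.1]) a.2 haB x hx).symm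
    · exact absurd (hq.fixed_of_comm_mem (minPair_symm hp) (by rwa [← (member_eq hp.1 hp.2.1).2.1]) a.2 haB hw ha.2) hwA
  have hKF : K ⊓ (CA ⊓ CB) = ⊥ := by
    rw [eq_bot_iff]
    rintro _ ⟨⟨a, rfl⟩, hF⟩
    exact Subgroup.mem_bot.mpr
      (commutatorElement_eq_one_iff_mul_comm.mpr (mem_centralizer_iff.mp (hA0 a hF).2 w hw).symm)
  have hker : φ.ker.map A.subtype ≤ A₀ := by
    rintro _ ⟨a, ha, rfl⟩
    exact hA0 a (by rw [show φ a = 1 from ha]; exact one_mem _)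
  have hbest : qMeasure V A₀ ≤ qMeasure V A := by
    by_cases h : A₀ = ⊥
    · rw [qMeasure, h, Subgroup.card_bot, one_mul]
      exact (Subgroup.card_le_of_le inf_le_left).trans hV
    · exact (hp.1.max _ (inf_le_left.trans hp.1.le) (hp.1.isP.to_le inf_le_left) h).1
  have hsup : CA ⊔ CB ≤ V ⊓ centralizer (A₀ : Set Γ) := sup_le
    (inf_le_inf_left _ (centralizer_le (inf_le_left : A₀ ≤ A)))
    (le_inf inf_le_left (le_centralizer_iff.mp inf_le_right))
  have hAB : Nat.card CA = Nat.card CB := (member_eq hp.1 hp.2.1).2.2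
  have h1 : Nat.card A₀ * Nat.card CA ≤ Nat.card A * Nat.card (CA ⊓ CB : Subgroup Γ) := by
    refine Nat.le_of_mul_le_mul_right ?_ (Nat.card_pos (α := CA))
    calc Nat.card A₀ * Nat.card CA * Nat.card CA
        = Nat.card A₀ * (Nat.card (CA ⊔ CB : Subgroup Γ) * Nat.card (CA ⊓ CB : Subgroup Γ)) := by
          rw [hq.card_fixed_sup A B, ← hAB, mul_assoc]
      _ ≤ Nat.card A₀ * (Nat.card (V ⊓ centralizer (A₀ : Set Γ) : Subgroup Γ) * Nat.card (CA ⊓ CB : Subgroup Γ)) :=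
          Nat.mul_le_mul_left _ (Nat.mul_le_mul_right _ (Subgroup.card_le_of_le hsup))
      _ ≤ Nat.card A * Nat.card CA * Nat.card (CA ⊓ CB : Subgroup Γ) := by
          rw [← mul_assoc]; exact Nat.mul_le_mul_right _ hbest
      _ = _ := by ring
  have htop : CA ≤ K ⊔ (CA ⊓ CB) := by
    refine le_of_eq (Subgroup.eq_of_le_of_card_ge (sup_le hK inf_le_left) ?_).symm
    have e := card_sup_mul_card_inf (show K ≤ normalizer ((CA ⊓ CB : Subgroup Γ) : Set Γ) from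
      (fun x hx => centralizer_le_normalizer _ (mem_centralizer_iff.mpr fun y hy => hq.comm y hy.1.1 x (hK hx).1)))
    rw [hKF, Subgroup.card_bot, mul_one] at e
    rw [e]
    refine Nat.le_of_mul_le_mul_left ?_ (Nat.card_pos (α := A₀))
    refine h1.trans ?_
    rw [← mul_assoc]
    refine Nat.mul_le_mul_right _ ?_
    rw [← Subgroup.card_mul_index φ.ker, Subgroup.index_ker, ← Subgroup.card_map_of_injective A.subtype_injective (K := φ.ker)]
    exact Nat.mul_le_mul_right _ (Subgroup.card_le_of_le hker)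
  intro u hu
  obtain ⟨k, hk, f, hf, rfl⟩ : ∃ k ∈ K, ∃ f ∈ CA ⊓ CB, k * f = u := by
    have hn : K ≤ normalizer ((CA ⊓ CB : Subgroup Γ) : Set Γ) :=
      (fun x hx => centralizer_le_normalizer _ (mem_centralizer_iff.mpr fun y hy => hq.comm y hy.1.1 x (hK hx).1))
    have := (show u ∈ ((K ⊔ (CA ⊓ CB) : Subgroup Γ) : Set Γ) from htop hu)
    rw [Subgroup.coe_mul_of_left_le_normalizer_right _ _ hn] at this
    exact this
  obtain ⟨a, rfl⟩ := hk
  exact ⟨a, a.2, f, hf, rfl⟩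

end pair

/-- Some pair of elements of `Y` moves a four-group of `V` as two transpositions. -/
theorem exists_four_group {A₁ : Subgroup Γ} (hA₁ : A₁ ≤ Y) (h2 : IsPGroup 2 A₁) (hne : A₁ ≠ ⊥)
    (hoff : Nat.card V ≤ qMeasure V A₁)
    (hO : ∀ N : Subgroup Γ, N ≤ Y → IsPGroup 2 N → Y ≤ normalizer (N : Set Γ) → N = ⊥) :
    ∃ a ∈ Y, ∃ b ∈ Y, ∃ r ∈ V, ∃ s ∈ V, r ≠ 1 ∧ s ≠ 1 ∧ a * r * a⁻¹ = r ∧ a * s * a⁻¹ = r * s ∧
      b * s * b⁻¹ = s ∧ b * r * b⁻¹ = s * r := by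
  classical
  obtain ⟨A, ⟨hAY, hA2, hA0⟩, hmax⟩ := Set.Finite.exists_maximalFor
    (fun X : Subgroup Γ => qMeasure V X * (Nat.card Γ + 1) + Nat.card X)
    {X | X ≤ Y ∧ IsPGroup 2 X ∧ X ≠ ⊥} (Set.toFinite _) ⟨A₁, hA₁, h2, hne⟩
  have hA : IsQMember V Y A := by
    refine ⟨hAY, hA2, hA0, fun Z h1 h2 h3 => ?_⟩
    have h : qMeasure V Z * (Nat.card Γ + 1) + Nat.card Z ≤ qMeasure V A * (Nat.card Γ + 1) + Nat.card A :=
      (le_total _ _).elim id (fun h => hmax (j := Z) ⟨h1, h2, h3⟩ h)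
    have hb := Subgroup.card_le_card_group A
    refine ⟨?_, fun h' => ?_⟩
    · by_contra hlt
      push Not at hlt
      have := Nat.mul_le_mul_right (Nat.card Γ + 1) (Nat.succ_le_of_lt hlt)
      rw [Nat.succ_mul] at this
      omega
    · have := Nat.mul_le_mul_right (Nat.card Γ + 1) h'
      omega
  have hV : Nat.card V ≤ qMeasure V A := hoff.trans (hA.max A₁ hA₁ h2 hne).1
  obtain ⟨g, hg, hgA⟩ : ∃ g ∈ Y, A.map (MulAut.conj g).toMonoidHom ≠ A := by
    by_contra h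
    push Not at h
    exact hA0 (hO A hAY hA2 fun y hy => mem_normalizer_iff_map_conj_eq.mpr (h y hy))
  obtain ⟨⟨X, Z⟩, ⟨hX, hZ, hXZ⟩, hmin⟩ := Set.Finite.exists_minimalFor
    (fun q : Subgroup Γ × Subgroup Γ => Nat.card (q.1 ⊔ q.2 : Subgroup Γ))
    {q | IsQMember V Y q.1 ∧ IsQMember V Y q.2 ∧ q.1 ≠ q.2} (Set.toFinite _)
    ⟨(A, A.map (MulAut.conj g).toMonoidHom), hA, hq.member_conj hA hg, hgA.symm⟩
  have hp : MinPair V Y X Z := ⟨hX, hZ, hXZ, fun X' Z' h1 h2 h3 =>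
    (le_total _ _).elim id (fun h => hmin (j := (X', Z')) ⟨h1, h2, h3⟩ h)⟩
  have hVX : Nat.card V ≤ qMeasure V X := by rwa [(member_eq hX hA).2.1]
  have hVZ : Nat.card V ≤ qMeasure V Z := by rwa [(member_eq hZ hA).2.1]
  set CX := V ⊓ centralizer (X : Set Γ)
  set CZ := V ⊓ centralizer (Z : Set Γ)
  obtain ⟨b₀, hb₀, hb₀X⟩ := hq.exists_moving hp hVX
  obtain ⟨w, hw, hwX⟩ : ∃ w ∈ CZ, w ∉ CX := by
    refine SetLike.not_le_iff_exists.mp fun hle => hb₀X ?_
    have heq : CZ = CX := Subgroup.eq_of_le_of_card_ge hle (member_eq hX hZ).2.2.le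
    exact hq.normalizes_of_fixes (minPair_symm hp) hVZ hb₀ fun v hv => mem_centralizer_iff.mp (heq.ge hv).2 b₀ hb₀
  obtain ⟨a, ha, haw⟩ : ∃ a ∈ X, a * w ≠ w * a := by
    by_contra h
    push Not at h
    exact hwX ⟨hw.1, mem_centralizer_iff.mpr h⟩
  set u := ⁅a, w⁆ with hu
  have huX : u ∈ CX := hq.comm_mem_fixed hX.le hX.isP ha hw.1
  have hu1 : u ≠ 1 := fun h => haw (commutatorElement_eq_one_iff_mul_comm.mp h)
  have huZ : u ∉ CZ := by
    intro h
    by_cases haZ : Z.map (MulAut.conj a).toMonoidHom = Z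
    · exact haw (hq.fixes_of_normalizes (minPair_symm hp) hVZ ha haZ w hw)
    · exact hwX (hq.fixed_of_comm_mem (minPair_symm hp) hVZ ha haZ hw h)
  obtain ⟨b, hb, f, hf, hwf⟩ := hq.cover (minPair_symm hp) hVZ huX huZ w hw
  set w₁ := ⁅b, u⁆ with hw₁
  have hw₁Z : w₁ ∈ CZ := hq.comm_mem_fixed hZ.le hZ.isP hb huX.1
  have hw₁1 : w₁ ≠ 1 := fun h => hwX (by
    rw [h, one_mul] at hwf
    rw [hwf]; exact hf.2)
  have haw₁ : ⁅a, w₁⁆ = u := by
    rw [hu, hwf, commutatorElement_mul_right_eq_mul_conj,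
      show ⁅a, f⁆ = 1 from commutatorElement_eq_one_iff_mul_comm.mpr (mem_centralizer_iff.mp hf.2.2 a ha),
      mul_one, mul_inv_cancel_right]
  refine ⟨a, hX.le ha, b, hZ.le hb, u, huX.1, w₁, hw₁Z.1, hu1, hw₁1, ?_, ?_, ?_, ?_⟩
  · exact mul_inv_eq_iff_eq_mul.mpr (mem_centralizer_iff.mp huX.2 a ha)
  · rw [hq.conj_eq, haw₁]
  · exact mul_inv_eq_iff_eq_mul.mpr (mem_centralizer_iff.mp hw₁Z.2 b hb)
  · exact hq.conj_eq

end QuadSylow

end Cfsg.Agent.PLocal
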