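import Cfsg.Agent.PLocal.SzEightFacts

/-!
An element `g` of order thirteen of `Sz(8)` fixes no nonzero matrix under
`X ↦ g X (σ g)ᵀ`, `σ` the squaring map.
-/

set_option autoImplicit false

namespace Cfsg.Agent.PLocal.SzEight

open Matrix Cfsg.Agent.Suzuki

variable {F : Type*} [Field F] {K : Type*} [Field K] [Algebra F K]

/-- `μ` is an eigenvalue over `K`. -/
def IsEigen (K : Type*) [Field K] [Algebra F K] (g : Cfsg.Sz F 1) (μ : K) : Prop :=
  (scalar (Fin 4) μ - g.1.1.map (algebraMap F K)).det = 0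

theorem isEigen_iff_root (g : Cfsg.Sz F 1) (μ : K) :
    IsEigen K g μ ↔ (g.1.1.map (algebraMap F K)).charpoly.eval μ = 0 := by
  rw [IsEigen, Matrix.eval_charpoly]

theorem exists_vec {g : Cfsg.Sz F 1} {μ : K} (hμ : IsEigen K g μ) :
    ∃ v : Fin 4 → K, v ≠ 0 ∧ (g.1.1.map (algebraMap F K)) *ᵥ v = μ • v := by
  obtain ⟨v, hv0, hv⟩ := exists_mulVec_eq_zero_iff.2 hμ
  refine ⟨v, hv0, ?_⟩
  rw [sub_mulVec, sub_eq_zero] at hv
  rw [← hv]
  simp [Matrix.scalar_apply, mulVec_diagonal, funext_iff]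

theorem isEigen_of_vec {g : Cfsg.Sz F 1} {μ : K} {v : Fin 4 → K} (hv0 : v ≠ 0)
    (hv : (g.1.1.map (algebraMap F K)) *ᵥ v = μ • v) : IsEigen K g μ := by
  refine exists_mulVec_eq_zero_iff.1 ⟨v, hv0, ?_⟩
  rw [sub_mulVec, hv, sub_eq_zero]
  simp [Matrix.scalar_apply, mulVec_diagonal, funext_iff]

variable (h : Ctx F 1)
include h

theorem pow_thirteen {g : Cfsg.Sz F 1} (hg : orderOf g = 13) {μ : K} (hμ : IsEigen K g μ) :
    μ ^ 13 = 1 ∧ μ ≠ 1 := by
  have := finite_sz h
  obtain ⟨v, hv0, hv⟩ := exists_vec hμ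
  constructor
  · have hpow : ∀ n : ℕ, ((g ^ n).1.1.map (algebraMap F K)) *ᵥ v = μ ^ n • v := by
      intro n
      induction n with
      | zero =>
        have e : ((g ^ 0).1.1.map (algebraMap F K)) = 1 := by simp
        rw [e, one_mulVec, pow_zero, one_smul]
      | succ n ih =>
        have e : (g ^ (n + 1)).1.1 = g.1.1 * (g ^ n).1.1 := by rw [pow_succ']; rfl
        rw [e, Matrix.map_mul, ← mulVec_mulVec, ih, mulVec_smul, hv, smul_smul, pow_succ]
    have h1 := hpow 13
    rw [← hg, pow_orderOf_eq_one, hg] at h1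
    have e : ((1 : Cfsg.Sz F 1).1.1.map (algebraMap F K)) = 1 := by simp
    rw [e, one_mulVec] at h1
    have h2 : (μ ^ 13 - 1) • v = 0 := by rw [sub_smul, one_smul, ← h1, sub_self]
    exact sub_eq_zero.1 ((smul_eq_zero.1 h2).resolve_right hv0)
  · rintro rfl
    have hd : ((1 : Matrix (Fin 4) (Fin 4) F) - g.1.1).det = 0 := by
      refine (algebraMap F K).injective ?_
      rw [map_zero, RingHom.map_det, map_sub, map_one]
      have h1 : (scalar (Fin 4) (1 : K) - g.1.1.map (algebraMap F K)).det = 0 := hμ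
      rwa [map_one] at h1
    obtain ⟨w, hw0, hw⟩ := exists_mulVec_eq_zero_iff.2 hd
    rw [sub_mulVec, one_mulVec, sub_eq_zero] at hw
    have h1 := Cfsg.Agent.PermGroups.eq_one_of_fixed_vector h (by rw [hg]; norm_num) hw.symm hw0
    rw [h1, orderOf_one] at hg
    omega

/-- Squaring maps the eigenvalues of `g` to those of its image under squaring. -/
theorem isEigen_sq [CharP F 2] [CharP K 2] (τ : F ≃+* F) (hτ : ∀ x, τ x = x ^ 2)
    {g : Cfsg.Sz F 1} {μ : K} (hμ : IsEigen K g μ) :
    IsEigen K (fieldAut h τ g) (μ ^ 2) := by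
  have h1 := congrArg (frobenius K 2) (show _ = (0 : K) from hμ)
  rw [map_zero, RingHom.map_det] at h1
  show (_ : Matrix (Fin 4) (Fin 4) K).det = 0
  rw [← h1]
  congr 1
  ext i j
  simp only [RingHom.mapMatrix_apply, Matrix.sub_apply, Matrix.map_apply, map_sub, frobenius_def]
  congr 1
  · by_cases hij : i = j
    · subst hij; simp [Matrix.scalar_apply]
    · simp [Matrix.scalar_apply, hij]
  · show algebraMap F K (τ (g.1.1 i j)) = _
    rw [hτ, map_pow]

theorem isEigen_pow_eight [CharP K 2] {g : Cfsg.Sz F 1} {μ : K} (hμ : IsEigen K g μ) :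
    IsEigen K g (μ ^ 8) := by
  have h1 := congrArg (iterateFrobenius K 2 3) (show _ = (0 : K) from hμ)
  rw [map_zero, RingHom.map_det] at h1
  show (_ : Matrix (Fin 4) (Fin 4) K).det = 0
  rw [← h1]
  congr 1
  ext i j
  simp only [RingHom.mapMatrix_apply, Matrix.sub_apply, Matrix.map_apply, map_sub,
    iterateFrobenius_def]
  congr 1
  · by_cases hij : i = j
    · subst hij; simp [Matrix.scalar_apply]
    · simp [Matrix.scalar_apply, hij]
  · rw [← map_pow]
    congr 1
    have := h.pow_q (g.1.1 i j)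
    norm_num at this ⊢
    exact this.symm

/-- The eigenvalues are one orbit under `x ↦ x⁸`. -/
theorem eigen_orbit [CharP K 2] {g : Cfsg.Sz F 1} (hg : orderOf g = 13) {μ ν : K}
    (hμ : IsEigen K g μ) (hν : IsEigen K g ν) :
    ∃ a ∈ ({1, 5, 8, 12} : Finset ℕ), ν = μ ^ a := by
  classical
  obtain ⟨h13, hne⟩ := pow_thirteen h hg hμ
  have : Fact (Nat.Prime 13) := ⟨by norm_num⟩
  have hord : orderOf μ = 13 := orderOf_eq_prime h13 hne
  have h8 := isEigen_pow_eight h hμ
  have h64 := isEigen_pow_eight h h8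
  have h512 := isEigen_pow_eight h h64
  have e64 : (μ ^ 8) ^ 8 = μ ^ 12 := by
    rw [← pow_mul, show 8 * 8 = 13 * 4 + 12 by norm_num, pow_add, pow_mul, h13, one_pow, one_mul]
  have e512 : ((μ ^ 8) ^ 8) ^ 8 = μ ^ 5 := by
    rw [e64, ← pow_mul, show 12 * 8 = 13 * 7 + 5 by norm_num, pow_add, pow_mul, h13, one_pow,
      one_mul]
  rw [e512] at h512
  rw [e64] at h64
  set f := (g.1.1.map (algebraMap F K)).charpoly with hf
  have hf0 : f ≠ 0 := (Matrix.charpoly_monic _).ne_zero
  have hsub : ({1, 5, 8, 12} : Finset ℕ).image (μ ^ ·) ⊆ f.roots.toFinset := by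
    intro x hx
    simp only [Finset.mem_image, Finset.mem_insert, Finset.mem_singleton] at hx
    rw [Multiset.mem_toFinset, Polynomial.mem_roots hf0, Polynomial.IsRoot.def, hf,
      ← isEigen_iff_root]
    obtain ⟨a, ha, rfl⟩ := hx
    rcases ha with rfl | rfl | rfl | rfl
    · simpa using hμ
    · exact h512
    · exact h8
    · exact h64
  have hinj : Set.InjOn (fun a : ℕ => μ ^ a) (({1, 5, 8, 12} : Finset ℕ) : Set ℕ) := by
    intro a ha b hb e
    refine pow_injOn_Iio_orderOf ?_ ?_ e <;> rw [Set.mem_Iio, hord] <;>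
      simp only [Finset.coe_insert, Finset.coe_singleton, Set.mem_insert_iff,
        Set.mem_singleton_iff] at ha hb <;> omega
  have hcard : f.roots.toFinset.card ≤ 4 := by
    refine (Multiset.toFinset_card_le _).trans ((Polynomial.card_roots' f).trans ?_)
    rw [hf, Matrix.charpoly_natDegree_eq_dim, Fintype.card_fin]
  have heq := Finset.eq_of_subset_of_card_le hsub (by
    rw [Finset.card_image_of_injOn hinj]
    exact hcard.trans (by decide))
  have hmem : ν ∈ f.roots.toFinset := by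
    rw [Multiset.mem_toFinset, Polynomial.mem_roots hf0, Polynomial.IsRoot.def, hf,
      ← isEigen_iff_root]
    exact hν
  rw [← heq, Finset.mem_image] at hmem
  obtain ⟨a, ha, e⟩ := hmem
  exact ⟨a, ha, e.symm⟩

/-- An element of order thirteen fixes no nonzero matrix. -/
theorem eq_zero_of_fix (τ : F ≃+* F) (hτ : ∀ x, τ x = x ^ 2) {g : Cfsg.Sz F 1}
    (hg : orderOf g = 13) {X : Matrix (Fin 4) (Fin 4) F}
    (hX : g.1.1 * X * ((fieldAut h τ g).1.1)ᵀ = X) : X = 0 := by
  classical
  have := h.charP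
  let K := AlgebraicClosure F
  haveI : CharP K 2 := charP_of_injective_algebraMap (algebraMap F K).injective 2
  set Z := fieldAut h τ g with hZ
  have hZ13 : orderOf Z = 13 := by rw [hZ, MulEquiv.orderOf_eq, hg]
  have hZ'13 : orderOf Z⁻¹ = 13 := by rw [orderOf_inv, hZ13]
  have hvals : (Z⁻¹).1.1 * Z.1.1 = 1 :=
    congrArg (fun z : Cfsg.Sz F 1 => z.1.1) (inv_mul_cancel Z)
  have hB : Z.1.1ᵀ * (Z⁻¹).1.1ᵀ = 1 := by rw [← transpose_mul, hvals, transpose_one]
  set A := g.1.1
  set B' := (Z⁻¹).1.1ᵀ with hB'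
  have hAX : A * X = X * B' := by
    calc A * X = A * X * (Z.1.1ᵀ * B') := by rw [hB, mul_one]
      _ = X * B' := by rw [← mul_assoc, hX]
  have hpoly : ∀ p : Polynomial F, Polynomial.aeval A p * X = X * Polynomial.aeval B' p := by
    intro p
    induction p using Polynomial.induction_on with
    | C c => simp [Algebra.algebraMap_eq_smul_one, mul_one, one_mul]
    | add p q hp hq => rw [map_add, map_add, add_mul, mul_add, hp, hq]
    | monomial n c ih =>
      have e : Polynomial.C c * Polynomial.X ^ (n + 1) =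
          Polynomial.C c * Polynomial.X ^ n * Polynomial.X := by rw [pow_succ, mul_assoc]
      rw [e, map_mul (Polynomial.aeval A), map_mul (Polynomial.aeval B'), Polynomial.aeval_X,
        Polynomial.aeval_X, mul_assoc, hAX, ← mul_assoc, ih, mul_assoc]
  have hcop : IsCoprime A.charpoly B'.charpoly := by
    refine (Polynomial.isCoprime_iff_aeval_ne_zero_of_isAlgClosed (k := F) K _ _).2 ?_
    intro μ
    by_contra hc
    push Not at hc
    obtain ⟨h1, h2⟩ := hc
    rw [Polynomial.aeval_def, ← Polynomial.eval_map, ← Matrix.charpoly_map] at h1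
    rw [hB', Matrix.charpoly_transpose, Polynomial.aeval_def, ← Polynomial.eval_map,
      ← Matrix.charpoly_map] at h2
    have hμ : IsEigen K g μ := (isEigen_iff_root g μ).2 h1
    have hμ' : IsEigen K Z⁻¹ μ := (isEigen_iff_root _ μ).2 h2
    obtain ⟨h13, hne⟩ := pow_thirteen h hg hμ
    have hμ0 : μ ≠ 0 := fun e => by simp [e] at h13
    -- `μ⁻¹` is an eigenvalue of `Z`
    obtain ⟨v, hv0, hv⟩ := exists_vec hμ'
    have hinv : IsEigen K Z μ⁻¹ := by
      refine isEigen_of_vec hv0 ?_
      have e := congrArg (fun x => (Z.1.1.map (algebraMap F K)) *ᵥ x) hv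
      have h3 : Z.1.1 * (Z⁻¹).1.1 = 1 :=
        congrArg (fun z : Cfsg.Sz F 1 => z.1.1) (mul_inv_cancel Z)
      rw [Matrix.mulVec_smul, Matrix.mulVec_mulVec, ← Matrix.map_mul, h3] at e
      rw [Matrix.map_one _ (map_zero _) (map_one _), one_mulVec] at e
      exact ((inv_smul_eq_iff₀ hμ0).2 e).symm
    obtain ⟨a, ha, e⟩ := eigen_orbit h hZ13 (isEigen_sq h τ hτ hμ) hinv
    have e1 : μ ^ (2 * a + 1) = 1 := by
      rw [pow_add, pow_one, pow_mul, ← e, inv_mul_cancel₀ hμ0]
    have : Fact (Nat.Prime 13) := ⟨by norm_num⟩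
    have hd := orderOf_dvd_of_pow_eq_one e1
    rw [orderOf_eq_prime h13 hne] at hd
    simp only [Finset.mem_insert, Finset.mem_singleton] at ha
    rcases ha with rfl | rfl | rfl | rfl <;> norm_num at hd
  obtain ⟨a, b, hab⟩ := hcop
  have h1 : X * Polynomial.aeval B' A.charpoly = 0 := by
    rw [← hpoly, Matrix.aeval_self_charpoly, zero_mul]
  have h2 : Polynomial.aeval B' A.charpoly * Polynomial.aeval B' a = 1 := by
    rw [← map_mul, mul_comm]
    have := congrArg (Polynomial.aeval B') hab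
    rw [map_add, map_mul (Polynomial.aeval B') b, Matrix.aeval_self_charpoly, mul_zero, add_zero,
      map_one] at this
    exact this
  calc X = X * Polynomial.aeval B' A.charpoly * Polynomial.aeval B' a := by
          rw [mul_assoc, h2, mul_one]
    _ = 0 := by rw [h1, zero_mul]

end Cfsg.Agent.PLocal.SzEight
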