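import Cfsg.Agent.PLocal.SzEightEigen
import Cfsg.Agent.PermGroups.PrimeGraphExtensionFix

/-!
Arbitrarily large groups whose prime graph has the vertices `2, 3, 5, 7, 13` and the edges
`2-3`, `2-5`, `2-7`, `3-5`: the split extensions of powers of the module of `4 × 4` matrices over
the field of eight elements by `Sz(8) ⋊ 3`.
-/

set_option autoImplicit false

namespace Cfsg.Agent.PLocal.SzEight

open Matrix Cfsg.Agent.Suzuki

/-- The edges. -/
def Edge (r s : ℕ) : Prop :=
  (r, s) ∈ ({(2, 3), (3, 2), (2, 5), (5, 2), (2, 7), (7, 2), (3, 5), (5, 3)} : Finset (ℕ × ℕ))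

variable {F : Type*} [Field F]

theorem map_mul_equiv (e : F ≃+* F) (A B : Matrix (Fin 4) (Fin 4) F) :
    (A * B).map e = A.map e * B.map e := by
  ext i j
  simp [Matrix.mul_apply]

theorem map_equiv_one (A : Matrix (Fin 4) (Fin 4) F) : A.map (1 : F ≃+* F) = A := by
  ext i j
  simp

theorem exists_squaring (h : Ctx F 1) :
    ∃ τ : F ≃+* F, (∀ x, τ x = x ^ 2) ∧ τ ^ 3 = 1 := by
  have := h.charP
  have := h.finite
  let τ : F ≃+* F := RingEquiv.ofBijective (frobenius F 2)
    (Finite.injective_iff_bijective.1 (frobenius_inj F 2))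
  have hτ : ∀ x, τ x = x ^ 2 := fun x => rfl
  refine ⟨τ, hτ, RingEquiv.ext fun x => ?_⟩
  show τ (τ (τ x)) = x
  rw [hτ, hτ, hτ, ← pow_mul, ← pow_mul]
  exact h.pow_q x

theorem exists_group (h : Ctx F 1) (N : ℕ) :
    ∃ (H : Type) (_ : Group H) (_ : Finite H), N < Nat.card H ∧
      ((∀ r : ℕ, r.Prime → (r ∣ Nat.card H ↔ r ∈ ({2, 3, 5, 7, 13} : Finset ℕ))) ∧
      (∀ r s : ℕ, r.Prime → s.Prime → r ≠ s → ((∃ y : H, orderOf y = r * s) ↔ Edge r s))) := by
  classical
  have := h.charP
  have := h.finite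
  have := finite_sz h
  obtain ⟨τ, hτ, hτ3⟩ := exists_squaring h
  let ψ : Multiplicative (ZMod 3) →* (F ≃+* F) := MonoidHom.mk' (fun i => τ ^ i.toAdd.val)
    fun a b => by
      rw [toAdd_mul, ZMod.val_add, ← pow_eq_pow_mod _ hτ3, pow_add]
  have hψc : ∀ i x, ψ i (τ x) = τ (ψ i x) := fun i x => by
    show ((τ ^ i.toAdd.val) * τ) x = (τ * τ ^ i.toAdd.val) x
    rw [(Commute.pow_self τ i.toAdd.val).eq]
  let φ : Multiplicative (ZMod 3) →* MulAut (Cfsg.Sz F 1) := (fieldAut h).comp ψ
  let G := SemidirectProduct (Cfsg.Sz F 1) (Multiplicative (ZMod 3)) φ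
  have : Finite G := Finite.of_equiv _ SemidirectProduct.equivProd.symm
  let V := Matrix (Fin 4) (Fin 4) F
  letI : SMul G V := ⟨fun x X => x.left.1.1 * X.map (ψ x.right) * (x.left.1.1.map τ)ᵀ⟩
  have hsmul : ∀ (x : G) (X : V),
      x • X = x.left.1.1 * X.map (ψ x.right) * (x.left.1.1.map τ)ᵀ := fun _ _ => rfl
  letI : DistribMulAction G V :=
    { one_smul := fun X => by
        rw [hsmul, SemidirectProduct.one_left, SemidirectProduct.one_right, map_one, map_equiv_one]
        simp
      mul_smul := fun x y X => by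
        have e1 : (x * y).left.1.1 = x.left.1.1 * y.left.1.1.map (ψ x.right) := rfl
        have e2 : X.map (ψ (x * y).right) = (X.map (ψ y.right)).map (ψ x.right) := by
          rw [SemidirectProduct.mul_right, map_mul]; ext i j; rfl
        rw [hsmul, hsmul, hsmul, e1, e2, map_mul_equiv, transpose_mul, map_mul_equiv (ψ x.right),
          map_mul_equiv (ψ x.right)]
        have e3 : ((y.left.1.1.map τ)ᵀ).map (ψ x.right) = ((y.left.1.1.map (ψ x.right)).map τ)ᵀ := by
          ext i j; exact hψc _ _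
        rw [e3]
        simp only [mul_assoc]
      smul_zero := fun x => by rw [hsmul]; simp
      smul_add := fun x X Y => by
        rw [hsmul, hsmul, hsmul, show (X + Y).map (ψ x.right) = X.map (ψ x.right) + Y.map (ψ x.right)
          from by ext i j; exact map_add (ψ x.right) _ _, mul_add, add_mul] }
  have hcardC : Nat.card (Multiplicative (ZMod 3)) = 3 := by
    rw [Nat.card_congr Multiplicative.toAdd, Nat.card_zmod]
  have hcard : Nat.card G = 87360 := by rw [SemidirectProduct.card, card_eq h, hcardC]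
  have hmem : ∀ r : ℕ, r.Prime → (r ∣ 87360 ↔ r ∈ ({2, 3, 5, 7, 13} : Finset ℕ)) := by
    intro r hr
    constructor
    · intro hd
      rw [show 87360 = 2 ^ 6 * (3 * (5 * (7 * 13))) by norm_num] at hd
      simp only [Finset.mem_insert, Finset.mem_singleton]
      rcases hr.dvd_mul.1 hd with h1 | h1
      · exact Or.inl ((Nat.prime_dvd_prime_iff_eq hr Nat.prime_two).1 (hr.dvd_of_dvd_pow h1))
      rcases hr.dvd_mul.1 h1 with h1 | h1
      · exact Or.inr (Or.inl ((Nat.prime_dvd_prime_iff_eq hr Nat.prime_three).1 h1))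
      rcases hr.dvd_mul.1 h1 with h1 | h1
      · exact Or.inr (Or.inr (Or.inl ((Nat.prime_dvd_prime_iff_eq hr (by norm_num)).1 h1)))
      rcases hr.dvd_mul.1 h1 with h1 | h1
      · exact Or.inr (Or.inr (Or.inr (Or.inl ((Nat.prime_dvd_prime_iff_eq hr (by norm_num)).1 h1))))
      · exact Or.inr (Or.inr (Or.inr (Or.inr ((Nat.prime_dvd_prime_iff_eq hr (by norm_num)).1 h1))))
    · intro hd
      simp only [Finset.mem_insert, Finset.mem_singleton] at hd
      rcases hd with rfl | rfl | rfl | rfl | rfl <;> norm_num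
  -- elements of prime order other than three lie in the normal Suzuki group
  have hleft : ∀ (x : G) {r : ℕ}, r.Prime → r ≠ 3 → orderOf x = r →
      ∃ g : Cfsg.Sz F 1, orderOf g = r ∧ x = SemidirectProduct.inl g := by
    intro x r hr hr3 hx
    have h1 : orderOf x.right ∣ r := hx ▸ orderOf_map_dvd
      (SemidirectProduct.rightHom : G →* Multiplicative (ZMod 3)) x
    have h3 : orderOf x.right ∣ 3 := (orderOf_dvd_natCard x.right).trans hcardC.dvd
    have e : x.right = 1 := orderOf_eq_one_iff.1 (Nat.eq_one_of_dvd_coprimes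
      ((Nat.coprime_primes hr Nat.prime_three).2 hr3) h1 h3)
    have hxl : x = SemidirectProduct.inl x.left := SemidirectProduct.ext (by simp) (by simp [e])
    exact ⟨x.left, by
      rw [← orderOf_injective (SemidirectProduct.inl : Cfsg.Sz F 1 →* G)
        SemidirectProduct.inl_injective x.left, ← hxl, hx], hxl⟩
  let u : G := SemidirectProduct.inr (Multiplicative.ofAdd 1)
  have hu : orderOf u = 3 := by
    rw [orderOf_injective _ SemidirectProduct.inr_injective, orderOf_ofAdd_eq_addOrderOf,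
      ZMod.addOrderOf_one]
  have hψ1 : ψ (Multiplicative.ofAdd 1) = τ := by
    show τ ^ (1 : ZMod 3).val = τ
    rw [show (1 : ZMod 3).val = 1 from rfl, pow_one]
  -- partners of three
  have hthree : ∀ (a b : G) {r : ℕ}, r.Prime → r ≠ 3 → orderOf a = 3 → orderOf b = r →
      a * b = b * a → ∃ g : Cfsg.Sz F 1, orderOf g = r ∧ fieldAut h τ g = g := by
    intro a b r hr hr3 ha hb hc
    have : Fact (Nat.Prime 3) := ⟨Nat.prime_three⟩
    have hfac : (Nat.card G).factorization 3 = 1 := by
      rw [hcard, show 87360 = 3 * 29120 by norm_num,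
        Nat.factorization_mul (by norm_num) (by norm_num), Finsupp.add_apply,
        Nat.prime_three.factorization_self,
        Nat.factorization_eq_zero_of_not_dvd (by norm_num : ¬ 3 ∣ 29120)]
    let P : Sylow 3 G := Sylow.ofCard (Subgroup.zpowers a)
      (by rw [Nat.card_zpowers, ha, hfac, pow_one])
    let Q : Sylow 3 G := Sylow.ofCard (Subgroup.zpowers u)
      (by rw [Nat.card_zpowers, hu, hfac, pow_one])
    obtain ⟨t, ht⟩ := MulAction.exists_smul_eq G P Q
    have h1 : t * a * t⁻¹ ∈ Subgroup.zpowers u := by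
      have h2 : t * a * t⁻¹ ∈ ((t • P : Sylow 3 G) : Subgroup G) :=
        Subgroup.mem_map_of_mem _ (Subgroup.mem_zpowers a)
      rwa [ht] at h2
    have h2 : Subgroup.zpowers (t * a * t⁻¹) = Subgroup.zpowers u := by
      refine Subgroup.eq_of_le_of_card_ge (Subgroup.zpowers_le.2 h1) ?_
      rw [Nat.card_zpowers, Nat.card_zpowers, ← MulAut.conj_apply, MulEquiv.orderOf_eq, ha, hu]
    obtain ⟨k, hk⟩ := Subgroup.mem_zpowers_iff.1 (h2 ▸ Subgroup.mem_zpowers u)
    have hcu : Commute u (t * b * t⁻¹) := by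
      rw [← hk]
      exact ((show Commute a b from hc).map (MulAut.conj t).toMonoidHom).zpow_left k
    obtain ⟨g, hg, he⟩ := hleft (t * b * t⁻¹) hr hr3
      (by rw [← MulAut.conj_apply, MulEquiv.orderOf_eq, hb])
    refine ⟨g, hg, SemidirectProduct.inl_injective (φ := φ) ?_⟩
    have e1 : fieldAut h τ = φ (Multiplicative.ofAdd 1) := by rw [← hψ1]; rfl
    rw [e1, SemidirectProduct.inl_aut, map_inv, ← he]
    rw [show SemidirectProduct.inr (φ := φ) (Multiplicative.ofAdd (1 : ZMod 3)) = u from rfl, hcu.eq]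
    exact mul_inv_cancel_right _ _
  have hF2 : ∀ g : Cfsg.Sz F 1, fieldAut h τ g = g → ∀ i j, g.1.1 i j = 0 ∨ g.1.1 i j = 1 := by
    intro g hg i j
    have h1 : g.1.1 i j ^ 2 = g.1.1 i j := by
      rw [← hτ]; exact congrArg (fun z : Cfsg.Sz F 1 => z.1.1 i j) hg
    have h2 : g.1.1 i j * (g.1.1 i j - 1) = 0 := by linear_combination h1
    rcases mul_eq_zero.1 h2 with h3 | h3
    · exact Or.inl h3
    · exact Or.inr (sub_eq_zero.1 h3)
  -- an element of order five over the prime field
  let M : Matrix (Fin 4) (Fin 4) (ZMod 2) := !![1, 1, 0, 1; 1, 0, 1, 0; 0, 1, 0, 0; 1, 0, 0, 0]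
  let W : Matrix (Fin 4) (Fin 4) (ZMod 2) := !![0, 0, 0, 1; 0, 0, 1, 0; 0, 1, 0, 0; 1, 0, 0, 0]
  let c : ZMod 2 →+* F := ZMod.castHom dvd_rfl F
  let g5 : Cfsg.Sz F 1 := uEl h 0 1 * wEl h
  have hg5v : g5.1.1 = M.map c := by
    show (uMat 1 (0 : F) 1).1 * (wMat (F := F)).1 = _
    ext i j
    fin_cases i <;> fin_cases j <;>
      simp [uMat, wMat, ovf, M, c, Matrix.mul_apply, Fin.sum_univ_four]
  have hg5o : orderOf g5 = 5 := by
    have : Fact (Nat.Prime 5) := ⟨by norm_num⟩
    refine orderOf_eq_prime (Subtype.ext (Subtype.ext ?_)) fun e => ?_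
    · show ((g5.1 ^ 5 : Matrix.SpecialLinearGroup (Fin 4) F) : Matrix (Fin 4) (Fin 4) F) = 1
      rw [Matrix.SpecialLinearGroup.coe_pow, hg5v, show M.map c = c.mapMatrix M from rfl, ← map_pow,
        show M ^ 5 = 1 from by decide +kernel, map_one]
    · have h1 := congrArg (fun z : Cfsg.Sz F 1 => z.1.1 0 1) e
      simp [hg5v, M, c] at h1
  have hg5τ : fieldAut h τ g5 = g5 := by
    rw [map_mul, fieldAut_uEl, fieldAut_wEl, map_zero, map_one]
  have hg5fix : (SemidirectProduct.inl g5 : G) • (W.map c) = W.map c := by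
    rw [hsmul, SemidirectProduct.left_inl, SemidirectProduct.right_inl, map_one, map_equiv_one,
      hg5v, show ((M.map c).map τ) = M.map c from by
        rw [← hg5v]; exact congrArg (fun z : Cfsg.Sz F 1 => z.1.1) hg5τ]
    rw [← transpose_map, ← Matrix.map_mul, ← Matrix.map_mul,
      show M * W * Mᵀ = W from by decide +kernel]
  -- an element of order seven
  obtain ⟨k, hk⟩ : ∃ k : Fˣ, orderOf k = 7 := by
    have : Fact (Nat.Prime 7) := ⟨by norm_num⟩
    exact exists_prime_orderOf_dvd_card' 7 (by rw [Nat.card_units, h.card]; norm_num)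
  have hg7o : orderOf (hEl h k) = 7 := by
    rw [← hk]
    exact orderOf_injective (MonoidHom.mk' (hEl h) (hEl_mul h)) (hEl_inj h) k
  have hg7fix : (SemidirectProduct.inl (hEl h k) : G) • (Matrix.single 0 1 1 : V) =
      Matrix.single 0 1 1 := by
    rw [hsmul, SemidirectProduct.left_inl, SemidirectProduct.right_inl, map_one, map_equiv_one]
    have e : (hEl h k).1.1 = (hMat 1 k).1 := rfl
    rw [e]
    have hk7 : (k : F) * th' 1 (k : F) * (th' 1 (k : F)) ^ 2 = 1 := by
      have h1 : ((k : F)) ^ 7 = 1 := by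
        rw [← Units.val_pow_eq_pow_val, ← hk, pow_orderOf_eq_one, Units.val_one]
      rw [← h1, th']
      ring
    ext i j
    fin_cases i <;> fin_cases j <;>
      simp [hMat, Matrix.mul_apply, Fin.sum_univ_four, hτ, Matrix.single, hk7]
  have hg3fix : u • (1 : V) = 1 := by
    rw [hsmul, SemidirectProduct.left_inr, SemidirectProduct.right_inr]
    simp
  obtain ⟨H, hHG, hHF, hN, hpr, hed⟩ :=
    Cfsg.Agent.PermGroups.exists_extension_prime_graph (G := G) Nat.prime_two
      (by rw [hcard]; norm_num) V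
      (fun v => by rw [two_nsmul]; ext i j; exact CharTwo.add_self_eq_zero _) N
  refine ⟨H, hHG, hHF, hN, fun r hr => ?_, fun r s hr hs hrs => ?_⟩
  · rw [← hpr r hr, hcard, hmem r hr]
  have hfixcase : ∀ {s : ℕ}, s.Prime → s ≠ 2 →
      ((∃ g : G, orderOf g = s ∧ ∃ v : V, g • v = v ∧ v ≠ 0) ↔ s = 3 ∨ s = 5 ∨ s = 7) := by
    intro s hs hs2
    constructor
    · rintro ⟨x, hx, v, hv, hv0⟩
      have hsm := (hmem s hs).1 (hcard ▸ hx ▸ orderOf_dvd_natCard x)
      simp only [Finset.mem_insert, Finset.mem_singleton] at hsm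
      rcases hsm with rfl | rfl | rfl | rfl | rfl
      · omega
      · omega
      · omega
      · omega
      exfalso
      obtain ⟨g, hg, rfl⟩ := hleft x hs (by norm_num) hx
      rw [hsmul, SemidirectProduct.left_inl, SemidirectProduct.right_inl, map_one,
        map_equiv_one] at hv
      exact hv0 (eq_zero_of_fix h τ hτ hg hv)
    · rintro (rfl | rfl | rfl)
      · exact ⟨u, hu, 1, hg3fix, one_ne_zero⟩
      · exact ⟨_, by rw [orderOf_injective _ SemidirectProduct.inl_injective, hg5o], _, hg5fix,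
          fun e => by
            have e1 : (W.map c : Matrix (Fin 4) (Fin 4) F) 0 3 = (0 : Matrix (Fin 4) (Fin 4) F) 0 3 :=
              congrFun (congrFun e 0) 3
            simp [W, c] at e1⟩
      · exact ⟨_, by rw [orderOf_injective _ SemidirectProduct.inl_injective, hg7o], _, hg7fix,
          fun e => by
            have e1 : (Matrix.single 0 1 1 : Matrix (Fin 4) (Fin 4) F) 0 1 =
              (0 : Matrix (Fin 4) (Fin 4) F) 0 1 := congrFun (congrFun e 0) 1
            simp at e1⟩
  rw [hed r s hr hs hrs]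
  constructor
  · rintro (⟨x, hx⟩ | ⟨rfl, hfx⟩ | ⟨rfl, hfx⟩)
    · have hpair : ∃ a b : G, a * b = b * a ∧ orderOf a = r ∧ orderOf b = s := by
        refine ⟨x ^ s, x ^ r, (Commute.pow_pow_self x s r).eq, ?_, ?_⟩
        · rw [orderOf_pow_of_dvd hs.ne_zero (hx ▸ dvd_mul_left s r), hx,
            Nat.mul_div_cancel _ hs.pos]
        · rw [orderOf_pow_of_dvd hr.ne_zero (hx ▸ dvd_mul_right r s), hx,
            Nat.mul_div_cancel_left _ hr.pos]
      obtain ⟨a, b, hc, ha, hb⟩ := hpair
      have key : ∀ {t : ℕ} (a b : G), t.Prime → t ≠ 3 → orderOf a = 3 → orderOf b = t →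
          a * b = b * a → t = 2 ∨ t = 5 := by
        intro t a b ht ht3 ha hb hc
        obtain ⟨g, hg, hgτ⟩ := hthree a b ht ht3 ha hb hc
        have hsm := (hmem t ht).1 (hcard ▸ hb ▸ orderOf_dvd_natCard b)
        simp only [Finset.mem_insert, Finset.mem_singleton] at hsm
        rcases hsm with rfl | rfl | rfl | rfl | rfl
        · exact Or.inl rfl
        · omega
        · exact Or.inr rfl
        · obtain ⟨i, j, h0, h1⟩ := exists_entry h (Or.inl rfl) hg
          exact absurd (hF2 g hgτ i j) (by rintro (e | e) <;> contradiction)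
        · obtain ⟨i, j, h0, h1⟩ := exists_entry h (Or.inr rfl) hg
          exact absurd (hF2 g hgτ i j) (by rintro (e | e) <;> contradiction)
      rcases eq_or_ne r 3 with rfl | hr3
      · rcases key a b hs hrs.symm ha hb hc with rfl | rfl <;> simp [Edge]
      rcases eq_or_ne s 3 with rfl | hs3
      · rcases key b a hr hrs hb ha hc.symm with rfl | rfl <;> simp [Edge]
      exfalso
      obtain ⟨g, hg, rfl⟩ := hleft a hr hr3 ha
      obtain ⟨g', hg', rfl⟩ := hleft b hs hs3 hb
      rw [← map_mul, ← map_mul] at hc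
      exact no_pair h hr hs hrs hg hg' (SemidirectProduct.inl_injective hc)
    · rcases (hfixcase hs hrs.symm).1 hfx with rfl | rfl | rfl <;> simp [Edge]
    · rcases (hfixcase hr hrs).1 hfx with rfl | rfl | rfl <;> simp [Edge]
  · intro he
    have h35 : ∃ x : G, orderOf x = 3 * 5 := by
      have hc : Commute u (SemidirectProduct.inl g5) := by
        refine SemidirectProduct.ext ?_ ?_
        · show (1 : Cfsg.Sz F 1) * φ (Multiplicative.ofAdd 1) g5 = g5 * φ 1 1
          rw [one_mul, map_one φ, MulAut.one_apply, mul_one]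
          show fieldAut h (ψ (Multiplicative.ofAdd 1)) g5 = g5
          rw [hψ1, hg5τ]
        · show (Multiplicative.ofAdd (1 : ZMod 3)) * 1 = 1 * Multiplicative.ofAdd 1
          rw [one_mul, mul_one]
      refine ⟨u * SemidirectProduct.inl g5, ?_⟩
      rw [hc.orderOf_mul_eq_mul_orderOf_of_coprime (by
        rw [hu, orderOf_injective _ SemidirectProduct.inl_injective, hg5o]; norm_num), hu,
        orderOf_injective _ SemidirectProduct.inl_injective, hg5o]
    simp only [Edge, Finset.mem_insert, Finset.mem_singleton, Prod.mk.injEq] at he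
    rcases he with ⟨rfl, rfl⟩ | ⟨rfl, rfl⟩ | ⟨rfl, rfl⟩ | ⟨rfl, rfl⟩ | ⟨rfl, rfl⟩ | ⟨rfl, rfl⟩ |
      ⟨rfl, rfl⟩ | ⟨rfl, rfl⟩
    · exact Or.inr (Or.inl ⟨rfl, (hfixcase Nat.prime_three (by norm_num)).2 (Or.inl rfl)⟩)
    · exact Or.inr (Or.inr ⟨rfl, (hfixcase Nat.prime_three (by norm_num)).2 (Or.inl rfl)⟩)
    · exact Or.inr (Or.inl ⟨rfl, (hfixcase (by norm_num) (by norm_num)).2 (Or.inr (Or.inl rfl))⟩)
    · exact Or.inr (Or.inr ⟨rfl, (hfixcase (by norm_num) (by norm_num)).2 (Or.inr (Or.inl rfl))⟩)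
    · exact Or.inr (Or.inl ⟨rfl, (hfixcase (by norm_num) (by norm_num)).2 (Or.inr (Or.inr rfl))⟩)
    · exact Or.inr (Or.inr ⟨rfl, (hfixcase (by norm_num) (by norm_num)).2 (Or.inr (Or.inr rfl))⟩)
    · exact Or.inl h35
    · exact Or.inl (mul_comm 5 3 ▸ h35)

end Cfsg.Agent.PLocal.SzEight
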