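import Cfsg.Agent.Suzuki.SzAut
import Cfsg.Agent.Suzuki.SzToriCount
import Cfsg.Agent.PermGroups.SuzukiFixedVectors

/-!
Elements of `Sz(8)`: commuting elements of distinct prime orders, elements over the prime field,
and the eigenvalues of the elements of order thirteen.
-/

set_option autoImplicit false

namespace Cfsg.Agent.PLocal.SzEight

open Matrix Cfsg.Agent.Suzuki

variable {F : Type*} [Field F] (h : Ctx F 1)
include h

theorem card_eq : Nat.card (Cfsg.Sz F 1) = 29120 := by rw [card_sz h]; norm_num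

/-- An involution commutes with no element of odd prime order. -/
theorem not_two {a b : Cfsg.Sz F 1} {r : ℕ} (hr : r.Prime) (hr2 : r ≠ 2) (ha : orderOf a = r)
    (hb : orderOf b = 2) (hc : a * b = b * a) : False := by
  have := finite_sz h
  have : Fact (Nat.Prime 2) := ⟨Nat.prime_two⟩
  have hP : IsPGroup 2 (Subgroup.zpowers b) :=
    IsPGroup.of_card (n := 1) (by rw [Nat.card_zpowers, hb, pow_one])
  obtain ⟨P, hle⟩ := hP.exists_le_sylow
  obtain ⟨t, ht⟩ := MulAction.exists_smul_eq (Cfsg.Sz F 1) P (uSylow h)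
  have hmem : t * b * t⁻¹ ∈ uGrp h := by
    rw [← uSylow_coe h, ← ht]
    exact Subgroup.mem_map_of_mem _ (hle (Subgroup.mem_zpowers b))
  obtain ⟨x, y, hxy⟩ := hmem
  have hxy0 : ¬(x = 0 ∧ y = 0) := by
    rintro ⟨rfl, rfl⟩
    rw [uEl_zero] at hxy
    rw [conj_eq_one_iff.1 hxy, orderOf_one] at hb
    omega
  obtain ⟨x', y', he⟩ := comm_uEl h hxy0 (c := t * a * t⁻¹) (by
    rw [← hxy, show t * a * t⁻¹ * (t * b * t⁻¹) = t * (a * b) * t⁻¹ by group, hc]; group)
  have h4 : r ∣ 2 ^ 2 := by
    rw [← ha, ← (MulAut.conj t).orderOf_eq a, MulAut.conj_apply, he]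
    exact orderOf_dvd_of_pow_eq_one (by simpa using uEl_pow_four h x' y')
  exact hr2 ((Nat.prime_dvd_prime_iff_eq hr Nat.prime_two).1 (hr.dvd_of_dvd_pow h4))

/-- The centraliser of an element of order thirteen has order thirteen. -/
theorem card_centralizer_thirteen {z : Cfsg.Sz F 1} (hz : orderOf z = 13) :
    Nat.card (Subgroup.centralizer ({z} : Set (Cfsg.Sz F 1))) = 13 := by
  have := finite_sz h
  have : Fact (Nat.Prime 13) := ⟨by norm_num⟩
  obtain ⟨U, -, hU, hcen, -⟩ := exceptional_tori h 13 (by norm_num)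
  have hfac : (Nat.card (Cfsg.Sz F 1)).factorization 13 = 1 := by
    rw [card_eq h, show 29120 = 13 * 2240 by norm_num,
      Nat.factorization_mul (by norm_num) (by norm_num), Finsupp.add_apply,
      (Nat.Prime.factorization_self (by norm_num : Nat.Prime 13)),
      Nat.factorization_eq_zero_of_not_dvd (by norm_num : ¬ 13 ∣ 2240)]
  let P : Sylow 13 (Cfsg.Sz F 1) := Sylow.ofCard (Subgroup.zpowers z)
    (by rw [Nat.card_zpowers, hz, hfac, pow_one])
  let Q : Sylow 13 (Cfsg.Sz F 1) := Sylow.ofCard U (by rw [hU, hfac, pow_one])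
  obtain ⟨t, ht⟩ := MulAction.exists_smul_eq (Cfsg.Sz F 1) P Q
  have hmem : t * z * t⁻¹ ∈ U := by
    have h1 : t * z * t⁻¹ ∈ ((t • P : Sylow 13 (Cfsg.Sz F 1)) : Subgroup (Cfsg.Sz F 1)) :=
      Subgroup.mem_map_of_mem _ (Subgroup.mem_zpowers z)
    rwa [ht] at h1
  have hcz := hcen _ hmem (fun h1 => by rw [conj_eq_one_iff.1 h1, orderOf_one] at hz; omega)
  rw [← hU, ← hcz]
  refine Nat.card_congr
    { toFun := fun c => ⟨t * c.1 * t⁻¹, Subgroup.mem_centralizer_singleton_iff.2 (by
        have := Subgroup.mem_centralizer_singleton_iff.1 c.2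
        rw [show t * c.1 * t⁻¹ * (t * z * t⁻¹) = t * (c.1 * z) * t⁻¹ by group, this]; group)⟩
      invFun := fun c => ⟨t⁻¹ * c.1 * t, Subgroup.mem_centralizer_singleton_iff.2 (by
        have := Subgroup.mem_centralizer_singleton_iff.1 c.2
        rw [show t⁻¹ * c.1 * t * z = t⁻¹ * (c.1 * (t * z * t⁻¹)) * t by group, this]; group)⟩
      left_inv := fun c => Subtype.ext (by simp [mul_assoc])
      right_inv := fun c => Subtype.ext (by simp [mul_assoc]) }

/-- No elements of order `r s`. -/
theorem no_pair {a b : Cfsg.Sz F 1} {r s : ℕ} (hr : r.Prime) (hs : s.Prime) (hrs : r ≠ s)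
    (ha : orderOf a = r) (hb : orderOf b = s) (hc : a * b = b * a) : False := by
  have := finite_sz h
  wlog hle : r < s generalizing a b r s
  · exact this hs hr hrs.symm hb ha hc.symm (by omega)
  rcases eq_or_ne r 2 with rfl | hr2
  · exact not_two h hs (by omega) hb ha hc.symm
  have hs2 : s ≠ 2 := by have := hr.two_le; omega
  have hmem : ∀ {p : ℕ} {z : Cfsg.Sz F 1}, p.Prime → p ≠ 2 → orderOf z = p →
      p = 5 ∨ p = 7 ∨ p = 13 := by
    intro p z hp hp2 hz
    have hd := hz ▸ orderOf_dvd_natCard z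
    rw [card_eq h, show 29120 = 2 ^ 6 * (5 * (7 * 13)) by norm_num] at hd
    rcases hp.dvd_mul.1 hd with h1 | h1
    · exact absurd ((Nat.prime_dvd_prime_iff_eq hp Nat.prime_two).1 (hp.dvd_of_dvd_pow h1)) hp2
    rcases hp.dvd_mul.1 h1 with h1 | h1
    · exact Or.inl ((Nat.prime_dvd_prime_iff_eq hp (by norm_num)).1 h1)
    rcases hp.dvd_mul.1 h1 with h1 | h1
    · exact Or.inr (Or.inl ((Nat.prime_dvd_prime_iff_eq hp (by norm_num)).1 h1))
    · exact Or.inr (Or.inr ((Nat.prime_dvd_prime_iff_eq hp (by norm_num)).1 h1))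
  have : Fact (Nat.Prime 5) := ⟨by norm_num⟩
  have case13 : s = 13 → False := by
    rintro rfl
    have hd := orderOf_dvd_natCard (⟨a, Subgroup.mem_centralizer_singleton_iff.2 hc⟩ :
      Subgroup.centralizer ({b} : Set (Cfsg.Sz F 1)))
    rw [← Subgroup.orderOf_coe, ha, card_centralizer_thirteen h hb] at hd
    exact hrs ((Nat.prime_dvd_prime_iff_eq hr hs).1 hd)
  rcases hmem hs hs2 hb with rfl | rfl | rfl
  · rcases hmem hr hr2 ha with rfl | rfl | rfl <;> omega
  · rcases hmem hr hr2 ha with rfl | rfl | rfl <;> try omega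
    have hd := orderOf_dvd_natCard (⟨b, Subgroup.mem_centralizer_singleton_iff.2 hc.symm⟩ :
      Subgroup.centralizer ({a} : Set (Cfsg.Sz F 1)))
    rw [← Subgroup.orderOf_coe, hb] at hd
    have h1 := hd.trans (card_centralizer_dvd h
      (fpf_of_prime h (p := 5) (by norm_num) (by norm_num) ha))
    norm_num at h1
  · exact case13 rfl

/-- An element of order seven or thirteen has an entry outside the prime field. -/
theorem exists_entry {g : Cfsg.Sz F 1} {r : ℕ} (hr : r = 7 ∨ r = 13) (hg : orderOf g = r) :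
    ∃ i j, g.1.1 i j ≠ 0 ∧ g.1.1 i j ≠ 1 := by
  classical
  by_contra hno
  push Not at hno
  have := h.charP
  have := finite_sz h
  have := h.finite
  have hp : r.Prime := by rcases hr with rfl | rfl <;> norm_num
  have := Fact.mk hp
  let := Fintype.ofFinite F
  let S := {v : Fin 4 → F // v ≠ 0 ∧ ∀ i, v i ^ 2 = v i}
  let : Fintype S := Fintype.ofFinite S
  have hg1 : ∀ i j, g.1.1 i j ^ 2 = g.1.1 i j := fun i j => by
    by_cases h0 : g.1.1 i j = 0
    · simp [h0]
    · simp [hno i j h0]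
  have hstep : ∀ v : Fin 4 → F, (∀ i, v i ^ 2 = v i) → ∀ i, (g.1.1 *ᵥ v) i ^ 2 = (g.1.1 *ᵥ v) i := by
    intro v hv i
    simp only [mulVec, dotProduct]
    rw [CharTwo.sum_sq]
    exact Finset.sum_congr rfl fun j _ => by rw [mul_pow, hg1, hv]
  let f : S → S := fun v => ⟨g.1.1 *ᵥ v.1, sl_mulVec_ne_zero _ v.2.1, hstep _ v.2.2⟩
  have hinj : Function.Injective f := fun v w e => by
    have e1 : g.1.1 *ᵥ v.1 = g.1.1 *ᵥ w.1 := congrArg Subtype.val e
    have e2 := congrArg (fun x => (g.1⁻¹).1 *ᵥ x) e1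
    simp only [sl_inv_mulVec] at e2
    exact Subtype.ext e2
  let σ : Equiv.Perm S := Equiv.ofBijective f (Finite.injective_iff_bijective.1 hinj)
  have hpow : ∀ (n : ℕ) (v : S), ((σ ^ n) v).1 = (g ^ n).1.1 *ᵥ v.1 := by
    intro n
    induction n with
    | zero => intro v; simp
    | succ n ih =>
      intro v
      rw [pow_succ', Equiv.Perm.mul_apply, pow_succ']
      show g.1.1 *ᵥ ((σ ^ n) v).1 = (g.1.1 * (g ^ n).1.1) *ᵥ v.1
      rw [ih, mulVec_mulVec]
  have hσr : σ ^ r = 1 := Equiv.ext fun v => Subtype.ext (by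
    rw [hpow, ← hg, pow_orderOf_eq_one]; simp)
  have hS : Fintype.card S = 15 := by
    let b : Bool → F := fun x => if x then 1 else 0
    have hb : Function.Injective b := fun x y e => by cases x <;> cases y <;> simp [b] at e ⊢
    let T := {v : Fin 4 → Bool // v ≠ fun _ => false}
    let e : T → S := fun v => ⟨fun i => b (v.1 i),
      fun e => v.2 (funext fun i => hb (by simpa [b] using congrFun e i)),
      fun i => by cases v.1 i <;> simp [b]⟩
    have he : Function.Bijective e := by
      refine ⟨fun v w e => Subtype.ext (funext fun i => hb (congrFun (congrArg Subtype.val e) i)),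
        fun v => ⟨⟨fun i => decide (v.1 i = 1), fun e => v.2.1 (funext fun i => ?_)⟩,
          Subtype.ext (funext fun i => ?_)⟩⟩
      · have h0 := congrFun e i
        simp only [decide_eq_false_iff_not] at h0
        have h1 : v.1 i * (v.1 i - 1) = 0 := by linear_combination v.2.2 i
        exact (mul_eq_zero.1 h1).resolve_right (sub_ne_zero.2 h0)
      · have h1 : v.1 i * (v.1 i - 1) = 0 := by linear_combination v.2.2 i
        rcases mul_eq_zero.1 h1 with h0 | h0
        · simp [e, b, h0]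
        · simp [e, b, sub_eq_zero.1 h0]
    rw [← Fintype.card_of_bijective he]
    decide
  obtain ⟨v, hv⟩ : ∃ v, σ v = v := by
    refine Equiv.Perm.exists_fixed_point_of_prime (p := r) (n := 1) ?_ (by simpa using hσr)
    rw [hS]
    rcases hr with rfl | rfl <;> norm_num
  have h1 := Cfsg.Agent.PermGroups.eq_one_of_fixed_vector h
    (by rw [hg]; rcases hr with rfl | rfl <;> norm_num) (congrArg Subtype.val hv) v.2.1
  rw [h1, orderOf_one] at hg
  omega

end Cfsg.Agent.PLocal.SzEight
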