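/-
Timmesfeld's replacement theorem.
-/
import Cfsg.Agent.PLocal.ElemAb
import Cfsg.Agent.Coprime.PxQ
import Cfsg.Prelude.Def_PLocal

set_option linter.unusedSectionVars false
set_option linter.style.haveILetI false

namespace Cfsg.Agent.PLocal

open Subgroup Cfsg
open scoped commutatorElement

variable {G : Type*} [Group G] [Finite G]

theorem coe_centralizer_le_of_le {A B : Subgroup G} (h : B ≤ A) : centralizer (A : Set G) ≤ centralizer (B : Set G) :=
  Subgroup.centralizer_le h

/-- `|A| |C_V(A)|`. -/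
noncomputable def offVal (V A : Subgroup G) : ℕ := Nat.card A * Nat.card (V ⊓ centralizer (A : Set G) : Subgroup G)

/-- The key inequality for one element. -/
theorem card_le_of_singleton (V A : Subgroup G) (hV : IsMulCommutative V) (hAV : A ≤ normalizer (V : Set G))
    (hab : ⁅A, A⁆ ≤ centralizer (V : Set G)) {u : G} (hu : u ∈ V) :
    Nat.card A * Nat.card (V ⊓ centralizer (A : Set G) : Subgroup G) ≤
      Nat.card (A ⊓ centralizer ((⁅zpowers u, A⁆ : Subgroup G) : Set G) : Subgroup G) *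
        Nat.card ((⁅zpowers u, A⁆ ⊔ (V ⊓ centralizer (A : Set G))) : Subgroup G) := by
  classical
  set W := ⁅zpowers u, A⁆ with hW
  set C₀ := V ⊓ centralizer (A : Set G) with hC₀
  set B := A ⊓ centralizer (W : Set G) with hB
  set Y := W ⊔ C₀ with hY
  have hc : ∀ a b : G, a ∈ V → b ∈ V → a * b = b * a := fun a b ha hb =>
    congrArg Subtype.val (hV.is_comm.comm ⟨a, ha⟩ ⟨b, hb⟩)
  have hWV : W ≤ V := (commutator_mono (zpowers_le.mpr hu) le_rfl).trans
    (Coprime.commutator_le_of_le_normalizer hAV)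
  have hC₀Y : C₀ ≤ Y := le_sup_right
  -- the class of `⁅u, a⁆` modulo `C₀`
  let ψ : A → Y ⧸ C₀.subgroupOf Y := fun a =>
    QuotientGroup.mk ⟨⁅u, (a : G)⁆, mem_sup_left (commutator_mem_commutator (mem_zpowers u) a.2)⟩
  have key : ∀ a a' : A, ψ a = ψ a' → ((a : G)⁻¹ * a') ∈ B := by
    intro a a' h
    simp only [ψ] at h
    rw [QuotientGroup.eq, Subgroup.mem_subgroupOf] at h
    simp only [Subgroup.coe_mul, InvMemClass.coe_inv] at h
    set z := ⁅u, (a : G)⁆⁻¹ * ⁅u, (a' : G)⁆ with hz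
    have hzV : z ∈ V := h.1
    have hzA : ∀ x ∈ A, x * z = z * x := fun x hx => Subgroup.mem_centralizer_iff.mp h.2 x hx
    set d := (a : G)⁻¹ * a' with hd
    have hdA : d ∈ A := mul_mem (inv_mem a.2) a'.2
    have hconj : ∀ x ∈ A, ∀ v ∈ V, x * v * x⁻¹ ∈ V := fun x hx v hv => (mem_normalizer_iff.mp (hAV hx) v).mp hv
    have hud : d * u⁻¹ * d⁻¹ = u⁻¹ * z := by
      have e : z = (a : G) * (u * (d * u⁻¹ * d⁻¹)) * (a : G)⁻¹ := by
        rw [hz, hd, commutatorElement_def, commutatorElement_def]; group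
      have e2 : u * (d * u⁻¹ * d⁻¹) = z := by
        have e3 : u * (d * u⁻¹ * d⁻¹) = (a : G)⁻¹ * z * a := by rw [e]; group
        rw [e3, mul_assoc, ← hzA a a.2, inv_mul_cancel_left]
      rw [← e2, inv_mul_cancel_left]
    have hfix : ∀ x ∈ A, d * ⁅u, x⁆ = ⁅u, x⁆ * d := by
      intro x hx
      have hx1 : d * x * d⁻¹ * x⁻¹ ∈ centralizer (V : Set G) := hab (commutator_mem_commutator hdA hx)
      have huinv : u⁻¹ ∈ V := inv_mem hu
      have h1 : d * (x * u⁻¹ * x⁻¹) * d⁻¹ = x * (d * u⁻¹ * d⁻¹) * x⁻¹ := by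
        have h2 := Subgroup.mem_centralizer_iff.mp hx1 _ (hconj x hx _ (hconj d hdA _ huinv))
        calc d * (x * u⁻¹ * x⁻¹) * d⁻¹
            = (d * x * d⁻¹ * x⁻¹) * (x * (d * u⁻¹ * d⁻¹) * x⁻¹) * (d * x * d⁻¹ * x⁻¹)⁻¹ := by group
          _ = _ := by rw [← h2, mul_inv_cancel_right]
      have hduinv : d * u * d⁻¹ = z⁻¹ * u := by
        have := congrArg (·⁻¹) hud
        simpa [mul_assoc] using this
      have e : d * ⁅u, x⁆ * d⁻¹ = ⁅u, x⁆ := by
        calc d * ⁅u, x⁆ * d⁻¹ = (d * u * d⁻¹) * (d * (x * u⁻¹ * x⁻¹) * d⁻¹) := by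
              rw [commutatorElement_def]; group
          _ = (z⁻¹ * u) * (x * (u⁻¹ * z) * x⁻¹) := by rw [h1, hud, hduinv]
          _ = z⁻¹ * (u * (x * u⁻¹ * x⁻¹) * z) := by
              have : x * (u⁻¹ * z) * x⁻¹ = (x * u⁻¹ * x⁻¹) * z := by
                rw [← mul_assoc x, mul_assoc (x * u⁻¹), ← hzA x⁻¹ (inv_mem hx)]; group
              rw [this]; group
          _ = u * (x * u⁻¹ * x⁻¹) := by
              rw [hc _ z (mul_mem hu (hconj x hx _ huinv)) hzV]; group
          _ = _ := by rw [commutatorElement_def]; group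
      exact mul_inv_eq_iff_eq_mul.mp e
    refine Subgroup.mem_inf.mpr ⟨hdA, ?_⟩
    rw [Subgroup.mem_centralizer_iff]
    intro w hw
    have hle : W ≤ centralizer ({d} : Set G) := by
      rw [hW, commutator_le]
      intro y hy x hx
      rw [Subgroup.mem_centralizer_singleton_iff]
      obtain ⟨i, rfl⟩ := hy
      have hg : ⁅u, x⁆ ∈ centralizer ({d} : Set G) := Subgroup.mem_centralizer_singleton_iff.mpr (hfix x hx).symm
      have hpow : ⁅u ^ i, x⁆ = ⁅u, x⁆ ^ i := by
        have h1 : Commute u (x * u⁻¹ * x⁻¹) := hc _ _ hu (hconj x hx _ (inv_mem hu))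
        rw [commutatorElement_def, commutatorElement_def, show u * x * u⁻¹ * x⁻¹ = u * (x * u⁻¹ * x⁻¹) by group,
          h1.mul_zpow, conj_zpow, inv_zpow]
        group
      rw [hpow]
      exact Subgroup.mem_centralizer_singleton_iff.mp (zpow_mem hg i)
    exact Subgroup.mem_centralizer_singleton_iff.mp (hle hw)
  have hBA : B ≤ A := inf_le_left
  have hinj : ∀ q q' : A ⧸ B.subgroupOf A, ψ q.out = ψ q'.out → q = q' := by
    intro q q' h
    rw [← QuotientGroup.out_eq' q, ← QuotientGroup.out_eq' q', QuotientGroup.eq, Subgroup.mem_subgroupOf]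
    simpa using key _ _ h
  have h1 : (B.subgroupOf A).index ≤ (C₀.subgroupOf Y).index :=
    Nat.card_le_card_of_injective (fun q : A ⧸ B.subgroupOf A => ψ q.out) (fun q q' h => hinj q q' h)
  have h2 : Nat.card B * (B.subgroupOf A).index = Nat.card A := by
    rw [← Subgroup.card_mul_index (B.subgroupOf A), Nat.card_congr (subgroupOfEquivOfLe hBA).toEquiv]
  have h3 : Nat.card C₀ * (C₀.subgroupOf Y).index = Nat.card Y := by
    rw [← Subgroup.card_mul_index (C₀.subgroupOf Y), Nat.card_congr (subgroupOfEquivOfLe hC₀Y).toEquiv]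
  calc Nat.card A * Nat.card C₀ = Nat.card B * Nat.card C₀ * (B.subgroupOf A).index := by
        rw [← h2]; ring
    _ ≤ Nat.card B * Nat.card C₀ * (C₀.subgroupOf Y).index := Nat.mul_le_mul le_rfl h1
    _ = _ := by rw [← h3]; ring

theorem inf_centralizer_sup (A W W' : Subgroup G) :
    A ⊓ centralizer ((W ⊔ W' : Subgroup G) : Set G) =
      (A ⊓ centralizer (W : Set G)) ⊓ (A ⊓ centralizer (W' : Set G)) := by
  have h : centralizer ((W ⊔ W' : Subgroup G) : Set G) = centralizer (W : Set G) ⊓ centralizer (W' : Set G) := by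
    refine le_antisymm (le_inf (Subgroup.centralizer_le (SetLike.coe_subset_coe.mpr le_sup_left))
      (Subgroup.centralizer_le (SetLike.coe_subset_coe.mpr le_sup_right))) ?_
    intro x hx
    have : W ⊔ W' ≤ centralizer ({x} : Set G) := sup_le
      (fun w hw => Subgroup.mem_centralizer_singleton_iff.mpr (Subgroup.mem_centralizer_iff.mp hx.1 w hw))
      (fun w hw => Subgroup.mem_centralizer_singleton_iff.mpr (Subgroup.mem_centralizer_iff.mp hx.2 w hw))
    exact Subgroup.mem_centralizer_iff.mpr fun w hw => Subgroup.mem_centralizer_singleton_iff.mp (this hw)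
  rw [h, ← inf_inf_distrib_left]

/-- `[closure (X ∪ {u}), A] = [closure X, A] ⊔ [⟨u⟩, A]` inside an abelian `V`. -/
theorem commutator_sup_of_comm {V A U U' : Subgroup G} (hV : IsMulCommutative V) (hAV : A ≤ normalizer (V : Set G))
    (hU : U ≤ V) (hU' : U' ≤ V) : ⁅U ⊔ U', A⁆ = ⁅U, A⁆ ⊔ ⁅U', A⁆ := by
  refine le_antisymm ?_ (sup_le (commutator_mono le_sup_left le_rfl) (commutator_mono le_sup_right le_rfl))
  rw [commutator_le]
  intro v hv a ha
  have hcc : U ≤ centralizer (U' : Set G) :=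
    (hU.trans (le_centralizer_iff_isMulCommutative.mpr hV)).trans (Subgroup.centralizer_le hU')
  obtain ⟨x, hx, y, hy, rfl⟩ :=
    Coprime.exists_mul_of_mem_sup (le_centralizer_iff.mp hcc |>.trans (Subgroup.centralizer_le_normalizer _)) hv
  have h1 : ⁅y, a⁆ ∈ V := Coprime.commutator_le_of_le_normalizer hAV (commutator_mem_commutator (hU' hy) ha)
  have e : ⁅x * y, a⁆ = ⁅y, a⁆ * ⁅x, a⁆ := by
    have h2 : x * ⁅y, a⁆ = ⁅y, a⁆ * x :=
      congrArg Subtype.val (hV.is_comm.comm ⟨x, hU hx⟩ ⟨⁅y, a⁆, h1⟩)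
    calc ⁅x * y, a⁆ = (x * ⁅y, a⁆ * x⁻¹) * ⁅x, a⁆ := by simp only [commutatorElement_def]; group
      _ = _ := by rw [h2, mul_inv_cancel_right]
  rw [e]
  exact mul_mem (mem_sup_right (commutator_mem_commutator hy ha)) (mem_sup_left (commutator_mem_commutator hx ha))

/-- Timmesfeld's replacement, when `A` is not improved by a subgroup. -/
theorem timmesfeld (V A : Subgroup G) (hV : IsMulCommutative V) (hAV : A ≤ normalizer (V : Set G))
    (hab : ⁅A, A⁆ ≤ centralizer (V : Set G))
    (hmax : ∀ B ≤ A, offVal V B ≤ offVal V A) (U : Subgroup G) (hU : U ≤ V) :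
    (V ⊓ centralizer ((A ⊓ centralizer ((⁅U, A⁆ : Subgroup G) : Set G) : Subgroup G) : Set G)) =
        ⁅U, A⁆ ⊔ (V ⊓ centralizer (A : Set G)) ∧
      offVal V (A ⊓ centralizer ((⁅U, A⁆ : Subgroup G) : Set G)) = offVal V A := by
  classical
  set C₀ := V ⊓ centralizer (A : Set G) with hC₀
  let P : Subgroup G → Prop := fun U =>
    offVal V A ≤ Nat.card (A ⊓ centralizer ((⁅U, A⁆ : Subgroup G) : Set G) : Subgroup G) *
      Nat.card (⁅U, A⁆ ⊔ C₀ : Subgroup G)
  -- the consequence of the inequality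
  have hfin : ∀ U : Subgroup G, U ≤ V → P U →
      (V ⊓ centralizer ((A ⊓ centralizer ((⁅U, A⁆ : Subgroup G) : Set G) : Subgroup G) : Set G)) = ⁅U, A⁆ ⊔ C₀ ∧
      offVal V (A ⊓ centralizer ((⁅U, A⁆ : Subgroup G) : Set G)) = offVal V A := by
    intro U hU hP
    set B := A ⊓ centralizer ((⁅U, A⁆ : Subgroup G) : Set G) with hB
    have hle : ⁅U, A⁆ ⊔ C₀ ≤ V ⊓ centralizer (B : Set G) := by
      refine sup_le (le_inf ((commutator_mono hU le_rfl).trans (Coprime.commutator_le_of_le_normalizer hAV)) ?_)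
        (le_inf inf_le_left (inf_le_right.trans (Subgroup.centralizer_le inf_le_left)))
      exact le_centralizer_iff.mp inf_le_right
    have h1 : offVal V A ≤ offVal V B :=
      hP.trans (Nat.mul_le_mul le_rfl (Subgroup.card_le_of_le hle))
    have h2 := le_antisymm (hmax B inf_le_left) h1
    refine ⟨(Subgroup.eq_of_le_of_card_ge hle ?_).symm, h2⟩
    exact Nat.le_of_mul_le_mul_left (h2.le.trans hP) Nat.card_pos
  suffices hP : P U from hfin U hU hP
  -- induction on a generating set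
  have hind : ∀ X : Finset G, (↑X : Set G) ⊆ V → P (closure (X : Set G)) := by
    intro X
    induction X using Finset.induction_on with
    | empty =>
      intro _
      show offVal V A ≤ _
      rw [Finset.coe_empty, Subgroup.closure_empty, Subgroup.commutator_bot_left, bot_sup_eq]
      refine Nat.mul_le_mul (Subgroup.card_le_of_le (le_inf le_rfl fun x _ => ?_)) le_rfl
      rw [Subgroup.mem_centralizer_iff]
      intro y hy
      rw [Subgroup.mem_bot.mp hy, one_mul, mul_one]
    | insert u X _ ih =>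
      intro hX
      rw [Finset.coe_insert, Set.insert_subset_iff] at hX
      set U₂ := closure (X : Set G) with hU₂
      have hU₂V : U₂ ≤ V := (Subgroup.closure_le _).mpr hX.2
      have h2 := ih hX.2
      have h1 : P (zpowers u) := card_le_of_singleton V A hV hAV hab hX.1
      have heq : closure ((insert u X : Finset G) : Set G) = zpowers u ⊔ U₂ := by
        rw [Finset.coe_insert, Set.insert_eq, Subgroup.closure_union, ← Subgroup.zpowers_eq_closure]
      obtain ⟨e1, v1⟩ := hfin _ (zpowers_le.mpr hX.1) h1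
      obtain ⟨e2, v2⟩ := hfin _ hU₂V h2
      show offVal V A ≤ _
      rw [heq, commutator_sup_of_comm hV hAV (zpowers_le.mpr hX.1) hU₂V, inf_centralizer_sup]
      set W₁ := ⁅zpowers u, A⁆ with hW₁
      set W₂ := ⁅U₂, A⁆ with hW₂
      set B₁ := A ⊓ centralizer (W₁ : Set G) with hB₁
      set B₂ := A ⊓ centralizer (W₂ : Set G) with hB₂
      set Y₁ := W₁ ⊔ C₀ with hY₁
      set Y₂ := W₂ ⊔ C₀ with hY₂
      have hWn : ∀ U : Subgroup G, U ≤ V → A ≤ normalizer ((A ⊓ centralizer ((⁅U, A⁆ : Subgroup G) : Set G) : Subgroup G) : Set G) := by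
        intro U hU a ha
        refine mem_normalizer_fintype fun b hb => Subgroup.mem_inf.mpr ⟨mul_mem (mul_mem ha hb.1) (inv_mem ha), ?_⟩
        rw [Subgroup.mem_centralizer_iff]
        intro w hw
        have hwV : w ∈ V := (commutator_mono hU le_rfl).trans (Coprime.commutator_le_of_le_normalizer hAV) hw
        have hc := Subgroup.mem_centralizer_iff.mp (hab (commutator_mem_commutator ha hb.1)) w hwV
        have hbw := Subgroup.mem_centralizer_iff.mp hb.2 w hw
        have e : a * b * a⁻¹ = ⁅a, b⁆ * b := by rw [commutatorElement_def]; group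
        rw [e, ← mul_assoc, hc, mul_assoc, hbw, mul_assoc]
      have hc1 := card_sup_mul_card_inf (A := B₁) (B := B₂) (inf_le_left.trans (hWn U₂ hU₂V))
      have hY₁V : Y₁ ≤ V := sup_le ((commutator_mono (zpowers_le.mpr hX.1) le_rfl).trans
        (Coprime.commutator_le_of_le_normalizer hAV)) inf_le_left
      have hY₂V : Y₂ ≤ V := sup_le ((commutator_mono hU₂V le_rfl).trans
        (Coprime.commutator_le_of_le_normalizer hAV)) inf_le_left
      have hc2 := card_sup_mul_card_inf (A := Y₁) (B := Y₂)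
        ((hY₁V.trans (le_centralizer_iff_isMulCommutative.mpr hV)).trans
          ((Subgroup.centralizer_le hY₂V).trans (Subgroup.centralizer_le_normalizer _)))
      have hYY : Y₁ ⊔ Y₂ = (W₁ ⊔ W₂) ⊔ C₀ := by
        rw [hY₁, hY₂, sup_sup_sup_comm, sup_idem]
      have hv1 : Nat.card B₁ * Nat.card Y₁ = offVal V A := by rw [← e1]; exact v1
      have hv2 : Nat.card B₂ * Nat.card Y₂ = offVal V A := by rw [← e2]; exact v2
      have h3 : Nat.card (B₁ ⊔ B₂ : Subgroup G) * Nat.card (Y₁ ⊓ Y₂ : Subgroup G) ≤ offVal V A := by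
        refine le_trans (Nat.mul_le_mul le_rfl (Subgroup.card_le_of_le ?_))
          (hmax (B₁ ⊔ B₂) (sup_le inf_le_left inf_le_left))
        refine le_inf (inf_le_left.trans hY₁V) (le_centralizer_iff.mp (sup_le ?_ ?_))
        · exact le_centralizer_iff.mp (inf_le_left.trans (e1 ▸ inf_le_right))
        · exact le_centralizer_iff.mp (inf_le_right.trans (e2 ▸ inf_le_right))
      rw [← hYY]
      -- arithmetic
      have hm0 : 0 < offVal V A := Nat.mul_pos Nat.card_pos Nat.card_pos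
      refine Nat.le_of_mul_le_mul_left (?_ : offVal V A * offVal V A ≤ offVal V A * _) hm0
      calc offVal V A * offVal V A
          = (Nat.card (B₁ ⊔ B₂ : Subgroup G) * Nat.card (B₁ ⊓ B₂ : Subgroup G)) *
            (Nat.card (Y₁ ⊔ Y₂ : Subgroup G) * Nat.card (Y₁ ⊓ Y₂ : Subgroup G)) := by
            rw [hc1, hc2]
            calc offVal V A * offVal V A = (Nat.card B₁ * Nat.card Y₁) * (Nat.card B₂ * Nat.card Y₂) := by
                  rw [hv1, hv2]
              _ = _ := by ring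
        _ = (Nat.card (B₁ ⊔ B₂ : Subgroup G) * Nat.card (Y₁ ⊓ Y₂ : Subgroup G)) *
            (Nat.card (B₁ ⊓ B₂ : Subgroup G) * Nat.card (Y₁ ⊔ Y₂ : Subgroup G)) := by ring
        _ ≤ _ := Nat.mul_le_mul h3 le_rfl
  have := hind (Set.toFinite (U : Set G)).toFinset (by simpa using hU)
  simpa using this

/-- For a best offender `A` with `[V, A] ≠ 1`, the replacement still acts nontrivially. -/
theorem commutator_replacement_ne_bot {p : ℕ} [Fact p.Prime] {V A U : Subgroup G}
    (hV : IsElementaryAbelian p V) (hAV : A ≤ normalizer (V : Set G)) (hA : IsBestOffenderOn p V A)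
    (hU : U ≤ V) (h : ⁅V, A⁆ ≠ ⊥) :
    ⁅V, A ⊓ centralizer ((⁅U, A⁆ : Subgroup G) : Set G)⁆ ≠ ⊥ := by
  obtain ⟨h1, h2, h3⟩ := hA
  obtain ⟨e, -⟩ := timmesfeld V A hV.1 hAV h2 h1 U hU
  intro hb
  rw [Subgroup.commutator_eq_bot_iff_le_centralizer] at hb
  set C := A ⊓ centralizer (V : Set G) with hC
  set W := ⁅U, A⁆ with hW
  have hWV : W ≤ V := (commutator_mono hU le_rfl).trans (Coprime.commutator_le_of_le_normalizer hAV)
  have hVW : V ≤ W ⊔ (V ⊓ centralizer (A : Set G)) := by
    rw [← e]; exact le_inf le_rfl hb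
  obtain ⟨P⟩ : Nonempty (Sylow p A) := inferInstance
  set P' := (P : Subgroup A).map A.subtype with hP'
  have hAP : A ≤ P' ⊔ C := by
    have hC' : (C.subgroupOf A).Normal := by
      refine ⟨fun c hc g => Subgroup.mem_inf.mpr ⟨(g * c * g⁻¹ : A).2, ?_⟩⟩
      rw [Subgroup.mem_centralizer_iff]
      intro v hv
      have hc' : (c : G) ∈ centralizer (V : Set G) := hc.2
      have hv' : (g : G)⁻¹ * v * g ∈ V := (mem_normalizer_iff''.mp (hAV g.2) v).mp hv
      have := Subgroup.mem_centralizer_iff.mp hc' _ hv'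
      calc v * ((g : G) * c * (g : G)⁻¹) = g * (((g : G)⁻¹ * v * g) * c) * (g : G)⁻¹ := by group
        _ = g * (c * ((g : G)⁻¹ * v * g)) * (g : G)⁻¹ := by rw [this]
        _ = _ := by simp [mul_assoc]
    have htop : (P : Subgroup A) ⊔ C.subgroupOf A = ⊤ := by
      have hq : IsPGroup p (A ⧸ C.subgroupOf A) := by
        intro q
        obtain ⟨a, rfl⟩ := QuotientGroup.mk'_surjective _ q
        refine ⟨1, ?_⟩
        rw [pow_one, ← map_pow, QuotientGroup.mk'_apply, QuotientGroup.eq_one_iff]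
        exact ⟨(a ^ p : A).2, by simpa using h3 a a.2⟩
      obtain ⟨k, hk⟩ := IsPGroup.iff_card.mp hq
      rw [← Subgroup.index_eq_one]
      refine Nat.eq_one_of_dvd_coprimes (a := (P : Subgroup A).index) ?_ (Subgroup.index_dvd_of_le le_sup_left)
        ((Subgroup.index_dvd_of_le le_sup_right).trans (dvd_of_eq hk))
      exact (Nat.Coprime.pow_left k (((Fact.out : p.Prime).coprime_iff_not_dvd).mpr P.not_dvd_index)).symm
    intro a ha
    have h4 : (⟨a, ha⟩ : A) ∈ (P : Subgroup A) ⊔ C.subgroupOf A := by rw [htop]; trivial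
    obtain ⟨x, hx, c, hc, exc⟩ := Subgroup.mem_sup_of_normal_right.mp h4
    rw [show a = (x : G) * c from (congrArg Subtype.val exc).symm]
    exact mul_mem (mem_sup_left ⟨x, hx, rfl⟩) (mem_sup_right hc)
  have hP'A : P' ≤ A := Subgroup.map_subtype_le _
  have hAW : A ≤ normalizer (W : Set G) := by
    intro a ha
    refine mem_normalizer_fintype fun w hw => ?_
    have : W ≤ W.comap (MulAut.conj a).toMonoidHom := by
      conv_lhs => rw [hW]
      rw [commutator_le]
      intro u hu x hx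
      show a * ⁅u, x⁆ * a⁻¹ ∈ W
      have e2 : a * ⁅u, x⁆ * a⁻¹ = ⁅u, a⁆⁻¹ * ⁅u, a * x⁆ := by simp only [commutatorElement_def]; group
      rw [e2]
      exact mul_mem (inv_mem (commutator_mem_commutator hu ha)) (commutator_mem_commutator hu (mul_mem ha hx))
    exact this hw
  have hC₀ : ∀ c ∈ V ⊓ centralizer (A : Set G), ∀ a ∈ A, ⁅c, a⁆ = 1 := fun c hc a ha =>
    commutatorElement_eq_one_iff_mul_comm.mpr (Subgroup.mem_centralizer_iff.mp hc.2 a ha).symm
  have hcc : ∀ c ∈ C, ∀ w ∈ W, ⁅w, c⁆ = 1 := fun c hc w hw =>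
    commutatorElement_eq_one_iff_mul_comm.mpr (Subgroup.mem_centralizer_iff.mp hc.2 w (hWV hw))
  have hWP : W ≤ ⁅W, P'⁆ := by
    conv_lhs => rw [hW]
    rw [commutator_le]
    intro u hu a ha
    obtain ⟨w, hw, c₀, hc₀, rfl⟩ := Coprime.exists_mul_of_mem_sup
      ((inf_le_left.trans (le_centralizer_iff_isMulCommutative.mpr hV.1)).trans
        ((Subgroup.centralizer_le hWV).trans (Subgroup.centralizer_le_normalizer _))) (hVW (hU hu))
    have e1 : ⁅w * c₀, a⁆ = ⁅w, a⁆ := by
      have := hC₀ c₀ hc₀ a ha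
      calc ⁅w * c₀, a⁆ = w * ⁅c₀, a⁆ * w⁻¹ * ⁅w, a⁆ := by simp only [commutatorElement_def]; group
        _ = _ := by rw [this]; group
    rw [e1]
    obtain ⟨x, hx, c, hc, rfl⟩ : ∃ x ∈ P', ∃ c ∈ C, x * c = a := by
      obtain ⟨c, hc, x, hx, e⟩ := Coprime.exists_mul_of_mem_sup (N := C) (A := P')
        (hP'A.trans fun y hy => mem_normalizer_fintype fun z hz => Subgroup.mem_inf.mpr ⟨mul_mem (mul_mem hy hz.1) (inv_mem hy), by
          rw [Subgroup.mem_centralizer_iff]
          intro v hv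
          have hv' : y⁻¹ * v * y ∈ V := (mem_normalizer_iff''.mp (hAV hy) v).mp hv
          have := Subgroup.mem_centralizer_iff.mp hz.2 _ hv'
          calc v * (y * z * y⁻¹) = y * ((y⁻¹ * v * y) * z) * y⁻¹ := by group
            _ = y * (z * (y⁻¹ * v * y)) * y⁻¹ := by rw [this]
            _ = _ := by group⟩)
        (sup_comm P' C ▸ hAP ha)
      refine ⟨x, hx, x⁻¹ * c * x, Subgroup.mem_inf.mpr ⟨mul_mem (mul_mem (inv_mem (hP'A hx)) hc.1) (hP'A hx), ?_⟩, by rw [← e]; group⟩
      rw [Subgroup.mem_centralizer_iff]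
      intro v hv
      have hv' : x * v * x⁻¹ ∈ V := (mem_normalizer_iff.mp (hAV (hP'A hx)) v).mp hv
      have := Subgroup.mem_centralizer_iff.mp hc.2 _ hv'
      calc v * (x⁻¹ * c * x) = x⁻¹ * ((x * v * x⁻¹) * c) * x := by group
        _ = x⁻¹ * (c * (x * v * x⁻¹)) * x := by rw [this]
        _ = _ := by group
    have e2 : ⁅w, x * c⁆ = ⁅w, x⁆ := by
      have := hcc c hc w hw
      calc ⁅w, x * c⁆ = ⁅w, x⁆ * (x * ⁅w, c⁆ * x⁻¹) := by simp only [commutatorElement_def]; group
        _ = _ := by rw [this]; group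
    rw [e2]
    exact commutator_mem_commutator hw hx
  have hW0 : W = ⊥ := by
    by_contra hne
    exact (Coprime.commutator_lt_of_isPGroup (isPGroup_of_EA (isEA_mono hV hWV)) (P.isPGroup'.map A.subtype)
      (hP'A.trans hAW) hne).not_ge hWP
  rw [hW0, bot_sup_eq] at hVW
  apply h
  rw [Subgroup.commutator_eq_bot_iff_le_centralizer]
  exact hVW.trans inf_le_right

end Cfsg.Agent.PLocal
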